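import Mathlib
import Cfsg.Agent.PGroup.Frattini
import Cfsg.Agent.PGroup.Normal

/-!
2-groups `T` of order at least `2 ^ 14` with fourth upper central term of order 16 in which
`W = C(Z₃)` has small Frattini subgroup contained in all subgroups of small index.
-/

namespace CfsgLib.RudvalisTwo

open scoped commutatorElement

variable {T : Type*} [Group T] [Finite T]

local notation "Zs" => Subgroup.upperCentralSeries T

/-- The hypotheses. -/
structure Hyp (W : Subgroup T) : Prop where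
  isPGroup : IsPGroup 2 T
  card_ge : 2 ^ 14 ≤ Nat.card T
  card_four : Nat.card ↥(Zs 4) = 16
  eq_centralizer : W = Subgroup.centralizer ((Zs 3 : Subgroup T) : Set T)
  frattini_card : Nat.card ↥(frattini ↥W) ≤ 8
  small_index : ∀ U : Subgroup ↥W, U.index ≤ 16 → frattini ↥W ≤ U

variable {W : Subgroup T}

theorem Hyp.normal (h : Hyp W) : W.Normal := by
  rw [h.eq_centralizer]; infer_instance

theorem Hyp.zs_lt (h : Hyp W) {i : ℕ} (hi : i < 4) : Zs i < Zs (i + 1) := by
  refine lt_of_le_of_ne (Subgroup.upperCentralSeries_mono T (Nat.le_succ i)) fun he => ?_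
  have hstat : ∀ n, Zs (i + n) = Zs i := by
    intro n
    induction n with
    | zero => rfl
    | succ n ih =>
      rw [he]
      ext x
      rw [show i + (n + 1) = i + n + 1 by omega, Subgroup.mem_upperCentralSeries_succ_iff,
        Subgroup.mem_upperCentralSeries_succ_iff, ih]
  haveI := h.isPGroup.isNilpotent
  obtain ⟨n, hn⟩ := Group.IsNilpotent.nilpotent T
  have htop : Zs i = ⊤ := by
    rw [← hstat n, eq_top_iff, ← hn]
    exact Subgroup.upperCentralSeries_mono T (by omega)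
  have h4 : Zs 4 = ⊤ := by
    rw [eq_top_iff, ← htop]
    exact Subgroup.upperCentralSeries_mono T (by omega)
  have := h.card_four
  rw [h4, Subgroup.card_top] at this
  have := h.card_ge
  omega

theorem two_mul_card_le_of_lt {A B : Subgroup T} (hAB : A < B) :
    2 * Nat.card A ≤ Nat.card B := by
  obtain ⟨c, hc⟩ := Subgroup.card_dvd_of_le hAB.le
  have hlt : Nat.card A < Nat.card B := Set.Finite.card_lt_card (Set.toFinite _) hAB
  rw [hc] at hlt ⊢
  have : 2 ≤ c := by
    rcases c with _ | _ | c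
    · simp at hlt
    · simp at hlt
    · omega
  rw [mul_comm 2]
  exact Nat.mul_le_mul_left _ this

theorem Hyp.card_zs (h : Hyp W) {i : ℕ} (hi : i ≤ 4) : Nat.card ↥(Zs i) = 2 ^ i := by
  have h0 : Nat.card ↥(Zs 0) = 1 := by
    rw [Subgroup.upperCentralSeries_zero]; exact Subgroup.card_bot
  have h1 := two_mul_card_le_of_lt (h.zs_lt (i := 0) (by omega))
  have h2 := two_mul_card_le_of_lt (h.zs_lt (i := 1) (by omega))
  have h3 := two_mul_card_le_of_lt (h.zs_lt (i := 2) (by omega))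
  have h4 := two_mul_card_le_of_lt (h.zs_lt (i := 3) (by omega))
  have h5 := h.card_four
  simp only [Nat.reduceAdd] at h1 h2 h3 h4
  interval_cases i <;> omega

theorem Hyp.index_two (h : Hyp W) {i : ℕ} (hi : i < 4) :
    ((Zs i).subgroupOf (Zs (i + 1))).index = 2 := by
  have hc := Subgroup.card_mul_index ((Zs i).subgroupOf (Zs (i + 1)))
  rw [Nat.card_congr (Subgroup.subgroupOfEquivOfLe
    (Subgroup.upperCentralSeries_mono T (Nat.le_succ i))).toEquiv,
    h.card_zs (by omega), h.card_zs (by omega), pow_succ] at hc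
  exact Nat.eq_of_mul_eq_mul_left (by positivity) hc

theorem Hyp.mul_mem_of (h : Hyp W) {i : ℕ} (hi : i < 4) {x y : T} (hx : x ∈ Zs (i + 1))
    (hy : y ∈ Zs (i + 1)) (hx' : x ∉ Zs i) (hy' : y ∉ Zs i) : x * y ∈ Zs i := by
  have := (Subgroup.mul_mem_iff_of_index_two (h.index_two hi) (a := ⟨x, hx⟩) (b := ⟨y, hy⟩))
  simp only [Subgroup.mem_subgroupOf, Subgroup.coe_mul] at this
  exact this.2 ⟨fun hh => absurd hh hx', fun hh => absurd hh hy'⟩

theorem Hyp.mem_cases (h : Hyp W) {i : ℕ} (hi : i < 4) {x z : T} (hx : x ∈ Zs (i + 1))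
    (hz : z ∈ Zs (i + 1)) (hz' : z ∉ Zs i) : x ∈ Zs i ∨ x * z⁻¹ ∈ Zs i := by
  by_cases hx' : x ∈ Zs i
  · exact Or.inl hx'
  · exact Or.inr (h.mul_mem_of hi hx (inv_mem hz) hx' (by simpa using hz'))

theorem Hyp.sq_mem (h : Hyp W) {i : ℕ} (hi : i < 4) {x : T} (hx : x ∈ Zs (i + 1)) :
    x ^ 2 ∈ Zs i := by
  have := Subgroup.sq_mem_of_index_two (h.index_two hi) ⟨x, hx⟩
  simpa [Subgroup.mem_subgroupOf] using this

/-- A normal subgroup containing `Z_j` properly contains `Z_{j+1}`. -/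
theorem Hyp.dichotomy (h : Hyp W) (N : Subgroup T) [N.Normal] {j : ℕ} (hj : j < 4)
    (hle : Zs j ≤ N) (hnot : ¬ N ≤ Zs j) : Zs (j + 1) ≤ N := by
  have hne : N.map (QuotientGroup.mk' (Zs j)) ≠ ⊥ := by
    intro hb
    rw [Subgroup.map_eq_bot_iff, QuotientGroup.ker_mk'] at hb
    exact hnot hb
  haveI : (N.map (QuotientGroup.mk' (Zs j))).Normal :=
    Subgroup.Normal.map inferInstance _ (QuotientGroup.mk'_surjective _)
  obtain ⟨⟨y, hy⟩, hy1⟩ : ∃ y : ↥(N.map (QuotientGroup.mk' (Zs j)) ⊓ Subgroup.center (T ⧸ Zs j)),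
      y ≠ 1 := by
    haveI : Nontrivial ↥(N.map (QuotientGroup.mk' (Zs j)) ⊓ Subgroup.center (T ⧸ Zs j)) :=
      (Subgroup.nontrivial_iff_ne_bot _).2
        (CfsgLib.PGroup.inf_center_ne_bot (h.isPGroup.to_quotient (Zs j)) _ hne)
    exact exists_ne 1
  obtain ⟨⟨x, hxN, rfl⟩, hyc⟩ := Subgroup.mem_inf.1 hy
  have hxj : x ∉ Zs j := fun hh => hy1 (Subtype.ext ((QuotientGroup.eq_one_iff x).2 hh))
  have hx1 : x ∈ Zs (j + 1) := by
    rw [Subgroup.mem_upperCentralSeries_succ_iff]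
    intro t
    rw [← QuotientGroup.eq_one_iff]
    change (QuotientGroup.mk' (Zs j)) ⁅x, t⁆ = 1
    rw [map_commutatorElement, commutatorElement_eq_one_iff_mul_comm]
    exact (Subgroup.mem_center_iff.1 hyc _).symm
  intro w hw
  rcases h.mem_cases hj hw hx1 hxj with hc | hc
  · exact hle hc
  · simpa using mul_mem (hle hc) hxN

theorem Hyp.normal_cases (h : Hyp W) (N : Subgroup T) [N.Normal] :
    ∀ {k : ℕ}, k ≤ 4 → Zs k ≤ N ∨ ∃ j < k, N = Zs j := by
  intro k
  induction k with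
  | zero => intro _; exact Or.inl (by rw [Subgroup.upperCentralSeries_zero]; exact bot_le)
  | succ k ih =>
    intro hk
    rcases ih (by omega) with hle | ⟨j, hj, he⟩
    · by_cases hN : N ≤ Zs k
      · exact Or.inr ⟨k, by omega, le_antisymm hN hle⟩
      · exact Or.inl (h.dichotomy N (by omega) hle hN)
    · exact Or.inr ⟨j, by omega, he⟩

/-- `t` centralizes `Z₃` as soon as it commutes with representatives. -/
theorem Hyp.mem_of_commute (h : Hyp W) {z₂ z₃ t : T} (h2 : z₂ ∈ Zs 2) (h2' : z₂ ∉ Zs 1)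
    (h3 : z₃ ∈ Zs 3) (h3' : z₃ ∉ Zs 2) (c2 : Commute t z₂) (c3 : Commute t z₃) : t ∈ W := by
  have hZ1 : ∀ x ∈ Zs 1, Commute t x := fun x hx => by
    rw [Subgroup.upperCentralSeries_one] at hx
    exact Subgroup.mem_center_iff.1 hx t
  have hZ2 : ∀ x ∈ Zs 2, Commute t x := fun x hx => by
    rcases h.mem_cases (i := 1) (by omega) hx h2 h2' with hc | hc
    · exact hZ1 x hc
    · simpa using (hZ1 _ hc).mul_right c2
  rw [h.eq_centralizer, Subgroup.mem_centralizer_iff]
  intro x hx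
  rcases h.mem_cases (i := 2) (by omega) hx h3 h3' with hc | hc
  · exact (hZ2 x hc).eq.symm
  · have h' : Commute t (x * z₃⁻¹ * z₃) := (hZ2 _ hc).mul_right c3
    rw [inv_mul_cancel_right] at h'
    exact h'.eq.symm

theorem Hyp.exists_rep (h : Hyp W) {i : ℕ} (hi : i < 4) : ∃ z ∈ Zs (i + 1), z ∉ Zs i :=
  SetLike.exists_of_lt (h.zs_lt hi)

theorem Hyp.index_le (h : Hyp W) : W.index ≤ 8 := by
  haveI := h.normal
  obtain ⟨z₂, h2, h2'⟩ := h.exists_rep (i := 1) (by omega)
  obtain ⟨z₃, h3, h3'⟩ := h.exists_rep (i := 2) (by omega)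
  have hm : ∀ {j : ℕ} {z : T}, z ∈ Zs (j + 1) → ∀ t : T, ⁅t, z⁆ ∈ Zs j := by
    intro j z hz t
    rw [← inv_mem_iff, commutatorElement_inv]
    exact Subgroup.mem_upperCentralSeries_succ_iff.1 hz t
  let g : T ⧸ W → ↥(Zs 1) × ↥(Zs 2) :=
    fun c => (⟨_, hm h2 (Quotient.out c)⟩, ⟨_, hm h3 (Quotient.out c)⟩)
  have hg : Function.Injective g := by
    intro a b hab
    simp only [g, Prod.mk.injEq, Subtype.mk.injEq, commutatorElement_def] at hab
    have hc : ∀ {z : T}, Quotient.out a * z * (Quotient.out a)⁻¹ * z⁻¹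
        = Quotient.out b * z * (Quotient.out b)⁻¹ * z⁻¹ →
        Commute ((Quotient.out b)⁻¹ * Quotient.out a) z := by
      intro z hz
      have hz' := mul_right_cancel hz
      show _ = _
      calc (Quotient.out b)⁻¹ * Quotient.out a * z
          = (Quotient.out b)⁻¹ * (Quotient.out a * z * (Quotient.out a)⁻¹) * Quotient.out a := by
            group
        _ = z * ((Quotient.out b)⁻¹ * Quotient.out a) := by rw [hz']; group
    have hW := h.mem_of_commute h2 h2' h3 h3' (hc hab.1) (hc hab.2)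
    rw [← QuotientGroup.out_eq' a, ← QuotientGroup.out_eq' b]
    exact (QuotientGroup.eq.2 hW).symm
  have hle := Nat.card_le_card_of_injective g hg
  rw [Nat.card_prod, h.card_zs (by omega), h.card_zs (by omega), ← Subgroup.index_eq_card] at hle
  exact hle

theorem Hyp.card_W_ge (h : Hyp W) : 2 ^ 11 ≤ Nat.card W := by
  have h1 := Subgroup.card_mul_index W
  have h2 := h.index_le
  have h3 := h.card_ge
  have := Nat.mul_le_mul_left (Nat.card W) h2
  omega

theorem Hyp.zs_four_le (h : Hyp W) : Zs 4 ≤ W := by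
  haveI := h.normal
  rcases h.normal_cases W (k := 4) le_rfl with hle | ⟨j, hj, he⟩
  · exact hle
  · exfalso
    have := h.card_W_ge
    rw [he, h.card_zs (by omega)] at this
    interval_cases j <;> omega

theorem Hyp.zs_le (h : Hyp W) {i : ℕ} (hi : i ≤ 4) : Zs i ≤ W :=
  le_trans (Subgroup.upperCentralSeries_mono T hi) h.zs_four_le

theorem Hyp.commute (h : Hyp W) {w z : T} (hw : w ∈ W) (hz : z ∈ Zs 3) : Commute w z := by
  rw [h.eq_centralizer, Subgroup.mem_centralizer_iff] at hw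
  exact (hw z hz).symm

/-- The core counting argument. -/
theorem Hyp.core (h : Hyp W) :
    W.index = 8 ∧ Nat.card W = 2 ^ 11 ∧ (frattini ↥W).map W.subtype = Zs 3 ∧
    ∃ f : T → ZMod 2, (∀ a ∈ W, ∀ b ∈ W, f (a * b) = f a + f b) ∧ (∀ x ∈ Zs 3, f x = 0) ∧
      (∀ x ∈ W, (∀ t, f (t * x * t⁻¹) = 0) → x ∈ Zs 3) ∧
      (∀ F : T ⧸ W → ZMod 2, ∃ x ∈ W, ∀ t : T, f (t * x * t⁻¹) = F (QuotientGroup.mk t)) := by
  classical
  haveI := h.normal
  set Fr := (frattini ↥W).map W.subtype with hFr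
  haveI : Fr.Normal := by rw [hFr]; infer_instance
  have hFW : Fr ≤ W := Subgroup.map_subtype_le _
  have hFc : Nat.card Fr ≤ 8 := by
    rw [hFr, Subgroup.card_map_of_injective W.subtype_injective]; exact h.frattini_card
  obtain ⟨j, hj, hFj⟩ : ∃ j < 4, Fr = Zs j := by
    rcases h.normal_cases Fr (k := 4) le_rfl with hle | hh
    · exfalso
      have := Nat.le_of_dvd Nat.card_pos (Subgroup.card_dvd_of_le hle)
      rw [h.card_four] at this
      omega
    · exact hh
  obtain ⟨u, hu, hu'⟩ := h.exists_rep hj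
  have huW : u ∈ W := h.zs_le (by omega : j + 1 ≤ 4) hu
  have huF : (⟨u, huW⟩ : W) ∉ frattini ↥W := fun hh => hu' (hFj ▸ ⟨_, hh, rfl⟩)
  rw [CfsgLib.PGroup.mem_frattini_iff] at huF
  push Not at huF
  obtain ⟨M, hM, huM⟩ := huF
  have hM2 : M.index = 2 := CfsgLib.PGroup.index_of_coatom (h.isPGroup.to_subgroup W) hM
  let f : T → ZMod 2 := fun x => if hx : x ∈ W then (if (⟨x, hx⟩ : W) ∈ M then 0 else 1) else 0
  have hf : ∀ a ∈ W, ∀ b ∈ W, f (a * b) = f a + f b := by
    intro a ha b hb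
    have hiff := Subgroup.mul_mem_iff_of_index_two hM2 (a := (⟨a, ha⟩ : W)) (b := ⟨b, hb⟩)
    have hiff' : (⟨a * b, mul_mem ha hb⟩ : W) ∈ M ↔
        ((⟨a, ha⟩ : W) ∈ M ↔ (⟨b, hb⟩ : W) ∈ M) := hiff
    simp only [f, dif_pos ha, dif_pos hb, dif_pos (mul_mem ha hb)]
    by_cases hA : (⟨a, ha⟩ : W) ∈ M <;> by_cases hB : (⟨b, hb⟩ : W) ∈ M
    · rw [if_pos (hiff'.2 (iff_of_true hA hB)), if_pos hA, if_pos hB]; decide
    · rw [if_neg (fun hh => hB ((hiff'.1 hh).1 hA)), if_pos hA, if_neg hB]; decide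
    · rw [if_neg (fun hh => hA ((hiff'.1 hh).2 hB)), if_neg hA, if_pos hB]; decide
    · rw [if_pos (hiff'.2 (iff_of_false hA hB)), if_neg hA, if_neg hB]; decide
  have hf0 : ∀ x ∈ Zs j, f x = 0 := by
    intro x hx
    rw [← hFj] at hx
    obtain ⟨⟨y, hy⟩, hyF, rfl⟩ := hx
    have : (⟨y, hy⟩ : W) ∈ M := CfsgLib.PGroup.mem_frattini_iff.1 hyF M hM
    simp only [f, Subgroup.coe_subtype, dif_pos hy, if_pos this]
  have hfu : f u = 1 := by simp only [f, dif_pos huW, if_neg huM]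
  have hconj : ∀ (t : T) {x : T}, x ∈ W → t * x * t⁻¹ ∈ W :=
    fun t x hx => Subgroup.Normal.conj_mem inferInstance x hx t
  have hout : ∀ (t : T) {x : T}, x ∈ W →
      f (Quotient.out (QuotientGroup.mk t : T ⧸ W) * x * (Quotient.out (QuotientGroup.mk t : T ⧸ W))⁻¹)
        = f (t * x * t⁻¹) := by
    intro t x hx
    obtain ⟨v, hv⟩ := QuotientGroup.mk_out_eq_mul W t
    rw [hv]
    rw [show t * (v : T) * x * (t * (v : T))⁻¹ =
      t * (v : T) * t⁻¹ * (t * x * t⁻¹) * (t * (v : T)⁻¹ * t⁻¹) by group]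
    rw [hf _ (mul_mem (hconj t v.2) (hconj t hx)) _ (hconj t (inv_mem v.2)),
      hf _ (hconj t v.2) _ (hconj t hx)]
    have h1 : f (t * (v : T) * t⁻¹) + f (t * (v : T)⁻¹ * t⁻¹) = 0 := by
      rw [← hf _ (hconj t v.2) _ (hconj t (inv_mem v.2))]
      rw [show t * (v : T) * t⁻¹ * (t * (v : T)⁻¹ * t⁻¹) = 1 by group]
      exact hf0 1 (one_mem _)
    linear_combination h1
  let φ : ↥W →* Multiplicative (T ⧸ W → ZMod 2) :=
    MonoidHom.mk' (fun x => Multiplicative.ofAdd fun c => f (Quotient.out c * x * (Quotient.out c)⁻¹))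
      (fun a b => by
        rw [← ofAdd_add]
        congr 1
        funext c
        rw [Pi.add_apply, ← hf _ (hconj _ a.2) _ (hconj _ b.2)]
        congr 1
        simp [mul_assoc])
  have hker : ∀ x : T, x ∈ W → (∀ t, f (t * x * t⁻¹) = 0) → x ∈ Zs j := by
    let N : Subgroup T :=
      { carrier := {x | x ∈ W ∧ ∀ t, f (t * x * t⁻¹) = 0}
        one_mem' := ⟨one_mem _, fun t => by simpa using hf0 1 (one_mem _)⟩
        mul_mem' := fun {a b} ha hb => ⟨mul_mem ha.1 hb.1, fun t => by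
          rw [show t * (a * b) * t⁻¹ = t * a * t⁻¹ * (t * b * t⁻¹) by group,
            hf _ (hconj t ha.1) _ (hconj t hb.1), ha.2 t, hb.2 t, add_zero]⟩
        inv_mem' := fun {a} ha => ⟨inv_mem ha.1, fun t => by
          have h1 := hf _ (hconj t ha.1) _ (hconj t (inv_mem ha.1))
          rw [show t * a * t⁻¹ * (t * a⁻¹ * t⁻¹) = 1 by group, hf0 1 (one_mem _), ha.2 t,
            zero_add] at h1
          exact h1.symm⟩ }
    haveI : N.Normal := ⟨fun x hx g => ⟨hconj g hx.1, fun t => by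
      rw [show t * (g * x * g⁻¹) * t⁻¹ = t * g * x * (t * g)⁻¹ by group]
      exact hx.2 (t * g)⟩⟩
    have hjN : Zs j ≤ N := fun x hx => ⟨h.zs_le (by omega) hx, fun t =>
      hf0 _ (Subgroup.Normal.conj_mem inferInstance x hx t)⟩
    intro x hxW hx
    by_contra hxj
    have hmem := h.dichotomy N hj hjN (fun hle => hxj (hle ⟨hxW, hx⟩)) hu
    have := hmem.2 1
    rw [one_mul, inv_one, mul_one, hfu] at this
    exact one_ne_zero this
  have hkerle : Nat.card φ.ker ≤ Nat.card Fr := by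
    rw [← Subgroup.card_map_of_injective W.subtype_injective (K := φ.ker), hFj]
    refine Subgroup.card_le_of_le ?_
    rintro _ ⟨x, hx, rfl⟩
    refine hker _ x.2 fun t => ?_
    have := congrFun (Multiplicative.toAdd.injective.eq_iff.2 (MonoidHom.mem_ker.1 hx))
      (QuotientGroup.mk t : T ⧸ W)
    simp only [φ, MonoidHom.mk'_apply, toAdd_ofAdd, toAdd_one, Pi.zero_apply] at this
    rwa [hout t x.2] at this
  have hrange : Nat.card φ.range ≤ 2 ^ W.index := by
    refine le_trans (Subgroup.card_le_card_group _) ?_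
    rw [Nat.card_congr Multiplicative.toAdd, Nat.card_fun, Nat.card_zmod,
      ← Subgroup.index_eq_card]
  have hprod : Nat.card φ.ker * Nat.card φ.range = Nat.card W := by
    rw [← Subgroup.index_ker]; exact Subgroup.card_mul_index _
  have hT := Subgroup.card_mul_index W
  have hge := h.card_ge
  have hi8 := h.index_le
  have hbound : Nat.card W ≤ Nat.card Fr * 2 ^ W.index :=
    hprod ▸ Nat.mul_le_mul hkerle hrange
  have hidx : W.index = 8 := by
    by_contra hne
    have h7 : W.index ≤ 7 := by omega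
    have hb : Nat.card W ≤ 8 * 2 ^ 7 :=
      le_trans hbound (Nat.mul_le_mul hFc (Nat.pow_le_pow_right (by norm_num) h7))
    have := Nat.mul_le_mul hb h7
    omega
  rw [hidx] at hbound hrange hT
  have hW11 : Nat.card W = 2 ^ 11 := by
    have := le_trans hbound (Nat.mul_le_mul_right _ hFc)
    omega
  have hF8 : Nat.card Fr = 8 := by omega
  have hj3 : j = 3 := by
    rw [hFj, h.card_zs (by omega)] at hF8
    interval_cases j <;> omega
  subst hj3
  refine ⟨hidx, hW11, hFj, f, hf, hf0, hker, fun F => ?_⟩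
  have hsurj : φ.range = ⊤ := by
    refine Subgroup.eq_top_of_card_eq _ (le_antisymm (Subgroup.card_le_card_group _) ?_)
    rw [Nat.card_congr Multiplicative.toAdd, Nat.card_fun, Nat.card_zmod,
      ← Subgroup.index_eq_card, hidx]
    have hk : Nat.card φ.ker ≤ 8 := hF8 ▸ hkerle
    have := Nat.mul_le_mul_right (Nat.card φ.range) hk
    omega
  obtain ⟨x, hx⟩ := MonoidHom.range_eq_top.1 hsurj (Multiplicative.ofAdd F)
  refine ⟨x, x.2, fun t => ?_⟩
  rw [← hout t x.2]
  exact congrFun (congrArg Multiplicative.toAdd hx) (QuotientGroup.mk t)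

theorem Hyp.index_eq (h : Hyp W) : W.index = 8 := h.core.1

theorem Hyp.card_W (h : Hyp W) : Nat.card W = 2 ^ 11 := h.core.2.1

theorem Hyp.frattini_eq (h : Hyp W) : (frattini ↥W).map W.subtype = Zs 3 := h.core.2.2.1

theorem Hyp.card_T (h : Hyp W) : Nat.card T = 2 ^ 14 := by
  rw [← Subgroup.card_mul_index W, h.card_W, h.index_eq]; norm_num

theorem Hyp.sq_mem_three (h : Hyp W) {w : T} (hw : w ∈ W) : w ^ 2 ∈ Zs 3 := by
  rw [← h.frattini_eq]
  exact ⟨⟨w, hw⟩ ^ 2, CfsgLib.PGroup.pow_prime_mem_frattini (h.isPGroup.to_subgroup W) _, rfl⟩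

theorem Hyp.comm_mem_three (h : Hyp W) {a b : T} (ha : a ∈ W) (hb : b ∈ W) :
    ⁅a, b⁆ ∈ Zs 3 := by
  rw [← h.frattini_eq]
  exact ⟨⁅⟨a, ha⟩, ⟨b, hb⟩⁆,
    CfsgLib.PGroup.commutatorElement_mem_frattini (h.isPGroup.to_subgroup W) _ _,
    map_commutatorElement W.subtype _ _⟩

/-- No subgroup of small index in `W` containing `Z₂` and an element of `Z₃ \ Z₂` has all
squares in `Z₂`. -/
theorem Hyp.absurd_of_squares (h : Hyp W) (K : Subgroup T) (hKW : K ≤ W) (h2K : Zs 2 ≤ K)
    {z : T} (hz : z ∈ Zs 3) (hz' : z ∉ Zs 2) (hzK : z ∈ K)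
    (hsq : ∀ x ∈ K, x ^ 2 ∈ Zs 2) (hcard : Nat.card W ≤ 8 * Nat.card K) : False := by
  have hN : ∀ a : K, a ^ 2 ∈ (Zs 2).subgroupOf K := fun a => by
    rw [Subgroup.mem_subgroupOf, Subgroup.coe_pow]; exact hsq _ a.2
  have hFK : frattini ↥K ≤ (Zs 2).subgroupOf K := by
    refine CfsgLib.PGroup.frattini_le_of_elementary (p := 2) (fun a b => ?_) hN
    have he : ⁅a, b⁆ = (a * b) ^ 2 * (b⁻¹ * (a⁻¹) ^ 2 * b⁻¹⁻¹) * (b⁻¹) ^ 2 := by
      rw [commutatorElement_def]; simp only [pow_two]; group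
    rw [he]
    exact mul_mem (mul_mem (hN _) (Subgroup.Normal.conj_mem inferInstance _ (hN _) _)) (hN _)
  have hzF : (⟨z, hzK⟩ : K) ∉ frattini ↥K := fun hh => hz' (hFK hh)
  rw [CfsgLib.PGroup.mem_frattini_iff] at hzF
  push Not at hzF
  obtain ⟨U, hU, hzU⟩ := hzF
  have hU2 : U.index = 2 := CfsgLib.PGroup.index_of_coatom (h.isPGroup.to_subgroup K) hU
  have hUW : U.map K.subtype ≤ W := le_trans (Subgroup.map_subtype_le _) hKW
  have hc1 := Subgroup.card_mul_index U
  have hc2 := Subgroup.card_mul_index ((U.map K.subtype).subgroupOf W)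
  rw [Nat.card_congr (Subgroup.subgroupOfEquivOfLe hUW).toEquiv,
    Subgroup.card_map_of_injective K.subtype_injective] at hc2
  rw [hU2] at hc1
  have hidx : ((U.map K.subtype).subgroupOf W).index ≤ 16 := by
    refine Nat.le_of_mul_le_mul_left ?_ (Nat.card_pos (α := U))
    omega
  have hzF' : (⟨z, hKW hzK⟩ : W) ∈ frattini ↥W := by
    rw [← h.frattini_eq] at hz
    obtain ⟨y, hy, hyz⟩ := hz
    rwa [show (⟨z, hKW hzK⟩ : W) = y from Subtype.ext hyz.symm]
  obtain ⟨y, hy, hyz⟩ := Subgroup.mem_subgroupOf.1 (h.small_index _ hidx hzF')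
  exact hzU (by rwa [show (⟨z, hzK⟩ : K) = y from Subtype.ext hyz.symm])

theorem Hyp.commutator_eq (h : Hyp W) : (commutator ↥W).map W.subtype = Zs 3 := by
  haveI := h.normal
  have hle : (commutator ↥W).map W.subtype ≤ Zs 3 := by
    rw [← h.frattini_eq]
    exact Subgroup.map_mono (CfsgLib.PGroup.commutator_le_frattini (h.isPGroup.to_subgroup W))
  rcases h.normal_cases ((commutator ↥W).map W.subtype) (k := 3) (by omega) with hh | ⟨j, hj, he⟩
  · exact le_antisymm hle hh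
  exfalso
  have hD : (commutator ↥W).map W.subtype ≤ Zs 2 :=
    he ▸ Subgroup.upperCentralSeries_mono T (by omega)
  let q : ↥W →* T ⧸ Zs 2 := (QuotientGroup.mk' (Zs 2)).comp W.subtype
  have hq : ∀ a b : W, Commute (q a) (q b) := fun a b => by
    rw [← commutatorElement_eq_one_iff_commute, ← map_commutatorElement]
    exact (QuotientGroup.eq_one_iff _).2 (hD ⟨_, Subgroup.commutator_mem_commutator
      (Subgroup.mem_top a) (Subgroup.mem_top b), rfl⟩)
  let φ : ↥W →* T ⧸ Zs 2 := MonoidHom.mk' (fun w => q w ^ 2)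
    (fun a b => by rw [map_mul, (hq a b).mul_pow])
  obtain ⟨z, hz, hz'⟩ := h.exists_rep (i := 2) (by omega)
  have hrange : Nat.card φ.range ≤ 2 := by
    have hsub : (φ.range : Set (T ⧸ Zs 2)) ⊆ {1, QuotientGroup.mk' (Zs 2) z} := by
      rintro _ ⟨w, rfl⟩
      change q w ^ 2 ∈ _
      rw [← map_pow]
      rcases h.mem_cases (i := 2) (by omega) (h.sq_mem_three w.2) hz hz' with hc | hc
      · exact Or.inl ((QuotientGroup.eq_one_iff _).2 hc)
      · refine Or.inr ?_
        have := (QuotientGroup.eq_one_iff _).2 hc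
        change QuotientGroup.mk' (Zs 2) ((w : T) ^ 2 * z⁻¹) = 1 at this
        rwa [map_mul, map_inv, mul_inv_eq_one] at this
    refine le_trans (Nat.card_mono (Set.toFinite _) hsub) ?_
    rw [Nat.card_coe_set_eq]
    exact le_trans (Set.ncard_insert_le _ _) (by simp)
  have hmemker : ∀ {x : W}, x ∈ φ.ker ↔ (x : T) ^ 2 ∈ Zs 2 := by
    intro x
    rw [MonoidHom.mem_ker]
    change q x ^ 2 = 1 ↔ _
    rw [← map_pow]
    exact QuotientGroup.eq_one_iff _
  have hin : ∀ x ∈ Zs 3, x ∈ φ.ker.map W.subtype := fun x hx =>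
    ⟨⟨x, h.zs_le (by omega) hx⟩, hmemker.2 (h.sq_mem (i := 2) (by omega) hx), rfl⟩
  refine h.absurd_of_squares (φ.ker.map W.subtype) (Subgroup.map_subtype_le _)
    (fun x hx => hin x (Subgroup.upperCentralSeries_mono T (by omega : 2 ≤ 3) hx)) hz hz'
    (hin z hz) ?_ ?_
  · rintro _ ⟨x, hx, rfl⟩
    exact hmemker.1 hx
  · rw [Subgroup.card_map_of_injective W.subtype_injective]
    have hp := Subgroup.card_mul_index φ.ker
    rw [Subgroup.index_ker] at hp
    have := Nat.mul_le_mul_left (Nat.card φ.ker) hrange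
    omega

theorem Hyp.sq_eq_one (h : Hyp W) {z : T} (hz : z ∈ Zs 3) : z ^ 2 = 1 := by
  have key : commutator ↥W ≤
      ({ carrier := {x : W | (x : T) ∈ Zs 3 ∧ (x : T) ^ 2 = 1}
         one_mem' := ⟨one_mem _, one_pow 2⟩
         mul_mem' := fun {a b} ha hb => ⟨mul_mem ha.1 hb.1, by
           rw [Subgroup.coe_mul, (h.commute a.2 hb.1).mul_pow, ha.2, hb.2, one_mul]⟩
         inv_mem' := fun {a} ha => ⟨inv_mem ha.1, by
           rw [Subgroup.coe_inv, inv_pow, ha.2, inv_one]⟩ } : Subgroup W) := by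
    rw [commutator_def, Subgroup.commutator_le]
    intro a _ b _
    refine ⟨by
      rw [show ((⁅a, b⁆ : W) : T) = ⁅(a : T), (b : T)⁆ from map_commutatorElement W.subtype a b]
      exact h.comm_mem_three a.2 b.2, ?_⟩
    have hc := h.comm_mem_three a.2 b.2
    have h1 : (b : T) * ⁅(a : T), (b : T)⁆ = ⁅(a : T), (b : T)⁆ * b := (h.commute b.2 hc).eq
    have h2 : ⁅(a : T), (b : T) ^ 2⁆ = 1 :=
      commutatorElement_eq_one_iff_mul_comm.2 (h.commute a.2 (h.sq_mem_three b.2)).eq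
    rw [show ((⁅a, b⁆ : W) : T) = ⁅(a : T), (b : T)⁆ from map_commutatorElement W.subtype a b,
      ← h2]
    rw [show ⁅(a : T), (b : T) ^ 2⁆ = ⁅(a : T), (b : T)⁆ * ((b : T) * ⁅(a : T), (b : T)⁆ * (b : T)⁻¹)
      by simp only [commutatorElement_def, pow_two]; group, h1, mul_inv_cancel_right, pow_two]
  rw [← h.commutator_eq] at hz
  obtain ⟨y, hy, rfl⟩ := hz
  exact (key hy).2

end CfsgLib.RudvalisTwo
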