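import Cfsg.Agent.RudvalisTwo.Coord

/-!
The centre of `W` equals `Z₃`.
-/

namespace CfsgLib.RudvalisTwo

open scoped commutatorElement

variable {T : Type*} [Group T] [Finite T] {W : Subgroup T}

local notation "Zs" => Subgroup.upperCentralSeries T

/-- Inverse parameter. -/
def invP (p : P3) : P3 := (p.1, p.2.1, p.2.2 + p.2.1 * p.1)

theorem comp_invP : ∀ p : P3, comp p (invP p) = 0 := by decide

theorem comp_zero : ∀ p : P3, comp p 0 = p := by decide

theorem comp_comp_invP : ∀ a b : P3, comp a (comp (invP a) b) = b := by decide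

theorem conjP_fixed : ∀ p x : P3, p.1 = 0 → p ≠ 0 → conjP p x = x → x.2.2 = 0 := by decide

theorem comp_self_of_fst : ∀ p : P3, p.1 = 0 → comp p p = 0 := by decide

/-- The five pairs spanning a totally singular subspace. -/
def pairs : Fin 5 → P3 × P3 :=
  ![((0, 0, 0), (0, 0, 1)), ((1, 1, 0), (1, 1, 1)), ((1, 1, 0), (1, 0, 0)),
    ((1, 1, 0), (1, 0, 1)), ((0, 0, 0), (0, 1, 0))]

/-- The general shape of the alternating form on a basis. -/
def shape (α β : ZMod 2) (p : P3) : ZMod 2 :=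
  if p.1 = 0 then 0 else if p.2.1 = 1 then α else β

theorem shape_pairs : ∀ (α β : ZMod 2) (m n : Fin 5),
    shape α β (comp (invP (pairs m).1) (pairs n).1) + shape α β (comp (invP (pairs m).1) (pairs n).2)
    + shape α β (comp (invP (pairs m).2) (pairs n).1)
    + shape α β (comp (invP (pairs m).2) (pairs n).2) = 0 := by decide

theorem shape_pair_self : ∀ (α β : ZMod 2) (m : Fin 5),
    shape α β (comp (invP (pairs m).1) (pairs m).2) = 0 := by decide

theorem pairs_read : ∀ c d : Fin 5 → ZMod 2,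
    (∀ q : P3, (∑ m, c m * ((if q = (pairs m).1 then 1 else 0) + (if q = (pairs m).2 then 1 else 0)))
      = ∑ m, d m * ((if q = (pairs m).1 then 1 else 0) + (if q = (pairs m).2 then 1 else 0))) →
    c = d := by
  intro c d h
  funext m
  have h001 := h (0, 0, 1)
  have h111 := h (1, 1, 1)
  have h100 := h (1, 0, 0)
  have h101 := h (1, 0, 1)
  have h010 := h (0, 1, 0)
  simp [Fin.sum_univ_five, pairs] at h001 h111 h100 h101 h010
  fin_cases m
  · simpa using h001
  · simpa using h111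
  · simpa using h100
  · simpa using h101
  · simpa using h010

theorem Hyp.center_le (h : Hyp W) {w : T} (hw : w ∈ W) (hcw : ∀ x ∈ W, Commute w x) :
    w ∈ Zs 3 := by
  classical
  by_contra hw3
  haveI := h.normal
  obtain ⟨F⟩ := h.exists_frame
  obtain ⟨u, hu4, hu3⟩ := h.exists_rep (i := 3) (by omega)
  have huW : u ∈ W := h.zs_four_le hu4
  have hucen : ∀ x ∈ W, Commute u x := by
    have hle : Zs 4 ≤ W ⊓ Subgroup.centralizer (W : Set T) := by
      refine h.dichotomy _ (by omega : (3 : ℕ) < 4) (fun z hz => ⟨h.zs_le (by omega) hz, ?_⟩)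
        (fun hle => hw3 (hle ⟨hw, ?_⟩))
      · exact Subgroup.mem_centralizer_iff.2 fun x hx => (h.commute hx hz).eq
      · exact Subgroup.mem_centralizer_iff.2 fun x hx => (hcw x hx).eq.symm
    intro x hx
    exact ((Subgroup.mem_centralizer_iff.1 (hle hu4).2) x hx).symm
  have hcj : ∀ (t : T) {x : T}, x ∈ W → t * x * t⁻¹ ∈ W :=
    fun t x hx => Subgroup.Normal.conj_mem inferInstance x hx t
  have hcj' : ∀ (t : T) {x : T}, x ∈ W → t⁻¹ * x * t ∈ W := fun t x hx => by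
    simpa using hcj t⁻¹ hx
  -- patterns
  have hpat_mul : ∀ (t : T) {a b : T}, a ∈ W → b ∈ W →
      F.f (t⁻¹ * (a * b) * t) = F.f (t⁻¹ * a * t) + F.f (t⁻¹ * b * t) := by
    intro t a b ha hb
    rw [← F.f_mul _ (hcj' t ha) _ (hcj' t hb)]
    congr 1
    group
  have hpat_inv : ∀ (t : T) {a : T}, a ∈ W → F.f (t⁻¹ * a⁻¹ * t) = F.f (t⁻¹ * a * t) := by
    intro t a ha
    have h1 := hpat_mul t ha (inv_mem ha)
    rw [mul_inv_cancel, show t⁻¹ * 1 * t = 1 by group, F.f_three 1 (one_mem _)] at h1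
    rw [eq_comm, CharTwo.add_eq_zero] at h1
    exact h1.symm
  have hker : ∀ {a b : T}, a ∈ W → b ∈ W →
      (∀ t, F.f (t⁻¹ * a * t) = F.f (t⁻¹ * b * t)) → a * b⁻¹ ∈ Zs 3 := by
    intro a b ha hb hab
    refine F.f_ker _ (mul_mem ha (inv_mem hb)) fun t => ?_
    rw [hpat_mul t ha (inv_mem hb), hpat_inv t hb, hab t, CharTwo.add_self_eq_zero]
  -- lifts
  choose X hXW hX using fun p : P3 => F.f_surj fun q => if q = p then 1 else 0
  -- the form
  let v : T → ZMod 2 := fun z => if z ∈ Zs 2 then 0 else 1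
  have hv_e : ∀ p : P3, v (F.e p) = p.2.2 := by
    intro p
    have hd : ∀ c : ZMod 2, c ≠ 0 → 1 = c := by decide
    by_cases hp : p.2.2 = 0
    · simp only [v, if_pos (F.mem_two.2 hp)]; exact hp.symm
    · simp only [v, if_neg (fun hh => hp (F.mem_two.1 hh))]; exact hd _ hp
  have hv_mul : ∀ {a b : T}, a ∈ Zs 3 → b ∈ Zs 3 → v (a * b) = v a + v b := by
    intro a b ha hb
    obtain ⟨p, rfl⟩ := F.mem_three.1 ha
    obtain ⟨q, rfl⟩ := F.mem_three.1 hb
    rw [← F.e_add, hv_e, hv_e, hv_e]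
    rfl
  have hv_one : v 1 = 0 := if_pos (one_mem _)
  have hv_inv : ∀ {a : T}, a ∈ Zs 3 → v a⁻¹ = v a := by
    intro a ha
    rw [inv_eq_of_mul_eq_one_left (show a * a = 1 by rw [← pow_two]; exact h.sq_eq_one ha)]
  have hv_conj : ∀ (t a : T), v (t * a * t⁻¹) = v a := by
    intro t a
    by_cases ha : a ∈ Zs 2
    · simp only [v, if_pos ha, if_pos (Subgroup.Normal.conj_mem inferInstance a ha t)]
    · have : t * a * t⁻¹ ∉ Zs 2 := fun hh => ha (by
        simpa [mul_assoc] using Subgroup.Normal.conj_mem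
          (inferInstance : (Zs 2).Normal) _ hh t⁻¹)
      simp only [v, if_neg ha, if_neg this]
  have hcm : ∀ {a b : T}, a ∈ W → b ∈ W → ⁅a, b⁆ ∈ Zs 3 :=
    fun ha hb => h.comm_mem_three ha hb
  have hcentral : ∀ {a z : T}, a ∈ W → z ∈ Zs 3 → a * z * a⁻¹ = z := fun {a z} ha hz => by
    rw [(h.commute ha hz).eq, mul_inv_cancel_right]
  have hBl : ∀ {a b c : T}, a ∈ W → b ∈ W → c ∈ W →
      v ⁅a * b, c⁆ = v ⁅a, c⁆ + v ⁅b, c⁆ := by
    intro a b c ha hb hc
    rw [show ⁅a * b, c⁆ = a * ⁅b, c⁆ * a⁻¹ * ⁅a, c⁆ by simp only [commutatorElement_def]; group,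
      hcentral ha (hcm hb hc), hv_mul (hcm hb hc) (hcm ha hc), add_comm]
  have hBsymm : ∀ {a b : T}, a ∈ W → b ∈ W → v ⁅a, b⁆ = v ⁅b, a⁆ := by
    intro a b ha hb
    rw [← commutatorElement_inv b a, hv_inv (hcm hb ha)]
  have hBr : ∀ {a b c : T}, a ∈ W → b ∈ W → c ∈ W →
      v ⁅a, b * c⁆ = v ⁅a, b⁆ + v ⁅a, c⁆ := by
    intro a b c ha hb hc
    rw [hBsymm ha (mul_mem hb hc), hBl hb hc ha, hBsymm hb ha, hBsymm hc ha]
  have hBz : ∀ {a z : T}, a ∈ W → z ∈ Zs 3 → v ⁅a, z⁆ = 0 := by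
    intro a z ha hz
    rw [commutatorElement_eq_one_iff_mul_comm.2 (h.commute ha hz).eq, hv_one]
  -- congruence of commutators modulo the centre
  have hcomm_congr : ∀ {a a' b b' : T}, a ∈ W → a' ∈ W → b ∈ W → b' ∈ W →
      a * a'⁻¹ ∈ Zs 3 → b * b'⁻¹ ∈ Zs 3 → ⁅a, b⁆ = ⁅a', b'⁆ := by
    intro a a' b b' ha ha' hb hb' haa hbb
    have e1 : ⁅a, b⁆ = ⁅a', b⁆ := by
      rw [show ⁅a, b⁆ = a * a'⁻¹ * ⁅a', b⁆ * (a * a'⁻¹)⁻¹ * ⁅a * a'⁻¹, b⁆ by
        simp only [commutatorElement_def]; group]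
      rw [commutatorElement_eq_one_iff_mul_comm.2 (h.commute hb haa).eq.symm, mul_one,
        hcentral (mul_mem ha (inv_mem ha')) (hcm ha' hb)]
    have e2 : ⁅a', b⁆ = ⁅a', b'⁆ := by
      rw [show ⁅a', b⁆ = ⁅a', b * b'⁻¹⁆ * (b * b'⁻¹ * ⁅a', b'⁆ * (b * b'⁻¹)⁻¹) by
        simp only [commutatorElement_def]; group]
      rw [commutatorElement_eq_one_iff_mul_comm.2 (h.commute ha' hbb).eq, one_mul,
        hcentral (mul_mem hb (inv_mem hb')) (hcm ha' hb')]
    rw [e1, e2]
  have htr : ∀ (t : T) (q : P3), t * X q * t⁻¹ * (X (comp (F.act t) q))⁻¹ ∈ Zs 3 := by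
    intro t q
    refine hker (hcj t (hXW q)) (hXW _) fun r => ?_
    rw [show r⁻¹ * (t * X q * t⁻¹) * r = (t⁻¹ * r)⁻¹ * X q * (t⁻¹ * r) by group, hX, hX]
    have hr : F.act r = comp (F.act t) (F.act (t⁻¹ * r)) := by rw [← F.act_mul, mul_inv_cancel_left]
    congr 1
    rw [hr]
    exact eq_iff_iff.2 ⟨fun hh => hh ▸ rfl, fun hh => comp_left_cancel _ _ _ hh⟩
  -- the form on the basis
  let G : P3 → ZMod 2 := fun p => v ⁅X 0, X p⁆
  have hBX : ∀ a b : P3, v ⁅X a, X b⁆ = G (comp (invP a) b) := by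
    intro a b
    obtain ⟨t, ht⟩ := F.act_surj a
    have h0 := htr t 0
    rw [ht, comp_zero] at h0
    have hd := htr t (comp (invP a) b)
    rw [ht, comp_comp_invP] at hd
    show _ = v ⁅X 0, X (comp (invP a) b)⁆
    rw [← hcomm_congr (hcj t (hXW 0)) (hXW a) (hcj t (hXW _)) (hXW b) h0 hd]
    rw [show ⁅t * X 0 * t⁻¹, t * X (comp (invP a) b) * t⁻¹⁆ =
      t * ⁅X 0, X (comp (invP a) b)⁆ * t⁻¹ by simp only [commutatorElement_def]; group, hv_conj]
  have hG0 : G 0 = 0 := by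
    show v ⁅X 0, X 0⁆ = 0
    rw [commutatorElement_self, hv_one]
  have hGinv : ∀ p, G (invP p) = G p := by
    intro p
    have h1 := hBX p 0
    rw [comp_zero] at h1
    rw [← h1, hBsymm (hXW p) (hXW 0)]
  have hGi : ∀ p : P3, p.1 = 0 → G p = 0 := by
    intro p hp
    rcases eq_or_ne p 0 with rfl | hp0
    · exact hG0
    obtain ⟨t, ht⟩ := F.act_surj p
    obtain ⟨x, hx⟩ := F.mem_three.1 (hcm (hXW 0) (hXW p))
    show v ⁅X 0, X p⁆ = 0
    rw [← hx, hv_e]
    refine conjP_fixed p x hp hp0 (F.e_inj ?_)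
    have h0 := htr t 0
    rw [ht, comp_zero] at h0
    have hd := htr t p
    rw [ht, comp_self_of_fst p hp] at hd
    rw [← ht, ← F.conj_e, hx, show t * ⁅X 0, X p⁆ * t⁻¹ = ⁅t * X 0 * t⁻¹, t * X p * t⁻¹⁆ by
      simp only [commutatorElement_def]; group]
    rw [hcomm_congr (hcj t (hXW 0)) (hXW p) (hcj t (hXW p)) (hXW 0) h0 hd,
      ← commutatorElement_inv]
    exact inv_eq_of_mul_eq_one_left (by rw [← pow_two]; exact h.sq_eq_one (hcm (hXW 0) (hXW p)))
  have hsum : ∑ p, G p = 0 := by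
    have key : ∀ s : Finset P3, ∃ x ∈ W,
        (∀ t, F.f (t⁻¹ * x * t) = ∑ p ∈ s, if F.act t = p then 1 else 0) ∧
        v ⁅X 0, x⁆ = ∑ p ∈ s, G p := by
      intro s
      induction s using Finset.induction_on with
      | empty =>
        refine ⟨1, one_mem _, fun t => ?_, by simp [hv_one]⟩
        simp [F.f_three 1 (one_mem _)]
      | insert q s hqs ih =>
        obtain ⟨x, hxW, hxp, hxG⟩ := ih
        refine ⟨X q * x, mul_mem (hXW q) hxW, fun t => ?_, ?_⟩
        · rw [hpat_mul t (hXW q) hxW, Finset.sum_insert hqs, hxp, hX]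
        · rw [hBr (hXW 0) (hXW q) hxW, Finset.sum_insert hqs, hxG]
    obtain ⟨x, hxW, hxp, hxG⟩ := key Finset.univ
    have hupat : ∀ t, F.f (t⁻¹ * u * t) = 1 := by
      have hconst : ∀ t, F.f (t⁻¹ * u * t) = F.f u := by
        intro t
        have hz : t⁻¹ * u * t * u⁻¹ ∈ Zs 3 := by
          have := Subgroup.mem_upperCentralSeries_succ_iff.1 hu4 t⁻¹
          rw [← inv_mem_iff, commutatorElement_inv, commutatorElement_def] at this
          simpa using this
        have := F.f_mul _ (h.zs_le (by omega) hz) _ huW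
        rw [inv_mul_cancel_right, F.f_three _ hz, zero_add] at this
        exact this
      intro t
      rw [hconst]
      have hd : ∀ a : ZMod 2, a ≠ 0 → a = 1 := by decide
      exact hd _ fun h0 => hu3 (F.f_ker u huW fun t => (hconst t).trans h0)
    rw [← hxG, hBsymm (hXW 0) hxW]
    have hz : x * u⁻¹ ∈ Zs 3 := hker hxW huW fun t => by rw [hxp, hupat]; simp
    rw [hcomm_congr hxW huW (hXW 0) (hXW 0) hz (by simp),
      commutatorElement_eq_one_iff_mul_comm.2 (hucen _ (hXW 0)).eq, hv_one]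
  obtain ⟨α, β, hGshape⟩ : ∃ α β, ∀ p, G p = shape α β p := by
    refine ⟨G (1, 1, 0), G (1, 0, 0), ?_⟩
    have hi := hGinv (1, 1, 0)
    rw [show invP (1, 1, 0) = (1, 1, 1) by decide] at hi
    have h2 : G (1, 0, 1) = G (1, 0, 0) := by
      rw [Fintype.sum_prod_type] at hsum
      simp only [Fintype.sum_prod_type, show (Finset.univ : Finset (ZMod 2)) = {0, 1} by decide,
        Finset.sum_pair (show (0 : ZMod 2) ≠ 1 by decide)] at hsum
      rw [hGi (0, 0, 0) rfl, hGi (0, 0, 1) rfl, hGi (0, 1, 0) rfl, hGi (0, 1, 1) rfl, hi] at hsum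
      simp only [zero_add, CharTwo.add_self_eq_zero, add_zero] at hsum
      exact (CharTwo.add_eq_zero.1 hsum).symm
    rintro ⟨i, k, j⟩
    have hd : ∀ a : ZMod 2, a = 0 ∨ a = 1 := by decide
    rcases hd i with rfl | rfl
    · rw [hGi _ rfl]; simp [shape]
    · rcases hd k with rfl | rfl <;> rcases hd j with rfl | rfl <;> simp [shape, hi, h2]
  -- the five elements
  let Y : Fin 5 → T := fun m => X (pairs m).1 * X (pairs m).2
  have hYW : ∀ m, Y m ∈ W := fun m => mul_mem (hXW _) (hXW _)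
  have hYY : ∀ m n, v ⁅Y m, Y n⁆ = 0 := by
    intro m n
    rw [hBl (hXW _) (hXW _) (hYW n), hBr (hXW _) (hXW _) (hXW _), hBr (hXW _) (hXW _) (hXW _),
      hBX, hBX, hBX, hBX]
    simp only [hGshape]
    rw [← add_assoc]
    exact shape_pairs _ _ m n
  have hsqW : ∀ {a : T}, a ∈ W → a ^ 2 ∈ Zs 3 := fun ha => h.sq_mem_three ha
  have hqmul : ∀ {a b : T}, a ∈ W → b ∈ W → v ((a * b) ^ 2) = v (a ^ 2) + v (b ^ 2) + v ⁅a, b⁆ := by
    intro a b ha hb
    have e : (a * b) ^ 2 = a ^ 2 * ⁅a⁻¹, b⁆ * b ^ 2 := by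
      simp only [commutatorElement_def, pow_two]; group
    rw [e, hv_mul (mul_mem (hsqW ha) (hcm (inv_mem ha) hb)) (hsqW hb),
      hv_mul (hsqW ha) (hcm (inv_mem ha) hb)]
    have e2 : v ⁅a⁻¹, b⁆ = v ⁅a, b⁆ := by
      have h1 := hBl ha (inv_mem ha) hb
      rw [mul_inv_cancel, commutatorElement_one_left, hv_one, eq_comm, CharTwo.add_eq_zero] at h1
      exact h1.symm
    rw [e2]; ring
  have hqX : ∀ p, v (X p ^ 2) = v (X 0 ^ 2) := by
    intro p
    obtain ⟨t, ht⟩ := F.act_surj p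
    have h0 := htr t 0
    rw [ht, comp_zero] at h0
    have hz : ∀ {a z : T}, a ∈ W → z ∈ Zs 3 → (z * a) ^ 2 = a ^ 2 := fun {a z} ha hz => by
      rw [(h.commute ha hz).symm.mul_pow, h.sq_eq_one hz, one_mul]
    rw [← hv_conj t (X 0 ^ 2), show t * X 0 ^ 2 * t⁻¹ = (t * X 0 * t⁻¹) ^ 2 by
      rw [conj_pow]]
    conv_rhs => rw [show t * X 0 * t⁻¹ = t * X 0 * t⁻¹ * (X p)⁻¹ * X p by group]
    rw [hz (hXW p) h0]
  have hYq : ∀ m, v (Y m ^ 2) = 0 := by
    intro m
    rw [hqmul (hXW _) (hXW _), hqX (pairs m).1, hqX (pairs m).2, CharTwo.add_self_eq_zero,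
      zero_add, hBX, hGshape]
    exact shape_pair_self _ _ m
  -- the subgroup
  let K : Subgroup T := Subgroup.closure (((Zs 3 : Subgroup T) : Set T) ∪ Set.range Y)
  have hgenW : ((Zs 3 : Subgroup T) : Set T) ∪ Set.range Y ⊆ (W : Set T) := by
    rintro x (hx | ⟨m, rfl⟩)
    · exact h.zs_le (by omega) hx
    · exact hYW m
  have hKW : K ≤ W := (Subgroup.closure_le W).2 hgenW
  have hinvB : ∀ {a c : T}, a ∈ W → c ∈ W → v ⁅a⁻¹, c⁆ = v ⁅a, c⁆ := fun {a c} ha hc => by
    have h1 := hBl ha (inv_mem ha) hc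
    rw [mul_inv_cancel, commutatorElement_one_left, hv_one, eq_comm, CharTwo.add_eq_zero] at h1
    exact h1.symm
  have hKY : ∀ x ∈ K, ∀ m, v ⁅x, Y m⁆ = 0 := by
    intro x hx m
    induction hx using Subgroup.closure_induction with
    | mem x hx =>
      rcases hx with hx | ⟨n, rfl⟩
      · rw [hBsymm (h.zs_le (by omega) hx) (hYW m), hBz (hYW m) hx]
      · exact hYY n m
    | one => rw [commutatorElement_one_left, hv_one]
    | mul x y hx hy ihx ihy => rw [hBl (hKW hx) (hKW hy) (hYW m), ihx, ihy, add_zero]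
    | inv x hx ih => rw [hinvB (hKW hx) (hYW m), ih]
  have hKK : ∀ x ∈ K, ∀ y ∈ K, v ⁅x, y⁆ = 0 := by
    intro x hx y hy
    induction hx using Subgroup.closure_induction with
    | mem x hx =>
      rcases hx with hx | ⟨n, rfl⟩
      · rw [hBsymm (h.zs_le (by omega) hx) (hKW hy), hBz (hKW hy) hx]
      · rw [hBsymm (hYW n) (hKW hy)]; exact hKY y hy n
    | one => rw [commutatorElement_one_left, hv_one]
    | mul a b ha hb iha ihb => rw [hBl (hKW ha) (hKW hb) (hKW hy), iha, ihb, add_zero]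
    | inv a ha ih => rw [hinvB (hKW ha) (hKW hy), ih]
  have hKsq : ∀ x ∈ K, v (x ^ 2) = 0 := by
    intro x hx
    induction hx using Subgroup.closure_induction with
    | mem x hx =>
      rcases hx with hx | ⟨n, rfl⟩
      · rw [h.sq_eq_one hx, hv_one]
      · exact hYq n
    | one => rw [one_pow, hv_one]
    | mul a b ha hb iha ihb => rw [hqmul (hKW ha) (hKW hb), iha, ihb, hKK a ha b hb]; decide
    | inv a ha ih => rw [inv_pow, hv_inv (hsqW (hKW ha)), ih]
  obtain ⟨z, hz3, hz2⟩ := h.exists_rep (i := 2) (by omega)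
  have hZK : Zs 3 ≤ K := fun x hx => Subgroup.subset_closure (Or.inl hx)
  refine h.absurd_of_squares K hKW
    (le_trans (Subgroup.upperCentralSeries_mono T (by omega : 2 ≤ 3)) hZK) hz3 hz2 (hZK hz3) ?_ ?_
  · intro x hx
    by_contra hx2
    have := hKsq x hx
    simp only [v, if_neg hx2] at this
    exact one_ne_zero this
  · let y : (Fin 5 → ZMod 2) → T := fun c =>
      Y 0 ^ (c 0).val * Y 1 ^ (c 1).val * Y 2 ^ (c 2).val * Y 3 ^ (c 3).val * Y 4 ^ (c 4).val
    have hyK : ∀ c, y c ∈ K := fun c => by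
      have hm : ∀ m, Y m ∈ K := fun m => Subgroup.subset_closure (Or.inr ⟨m, rfl⟩)
      exact mul_mem (mul_mem (mul_mem (mul_mem (pow_mem (hm 0) _) (pow_mem (hm 1) _))
        (pow_mem (hm 2) _)) (pow_mem (hm 3) _)) (pow_mem (hm 4) _)
    have hpow : ∀ (t : T) (m : Fin 5) (a : ZMod 2), F.f (t⁻¹ * Y m ^ a.val * t) =
        a * ((if F.act t = (pairs m).1 then 1 else 0) + (if F.act t = (pairs m).2 then 1 else 0)) := by
      intro t m a
      have hd : ∀ a : ZMod 2, a = 0 ∨ a = 1 := by decide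
      rcases hd a with rfl | rfl
      · rw [ZMod.val_zero, pow_zero, show t⁻¹ * 1 * t = 1 by group, F.f_three 1 (one_mem _),
          zero_mul]
      · rw [ZMod.val_one, pow_one, one_mul, hpat_mul t (hXW _) (hXW _), hX, hX]
    have hypat : ∀ (t : T) c, F.f (t⁻¹ * y c * t) = ∑ m, c m *
        ((if F.act t = (pairs m).1 then 1 else 0) + (if F.act t = (pairs m).2 then 1 else 0)) := by
      intro t c
      have hp : ∀ m, Y m ^ (c m).val ∈ W := fun m => pow_mem (hYW m) _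
      rw [Fin.sum_univ_five, hpat_mul t (mul_mem (mul_mem (mul_mem (hp 0) (hp 1)) (hp 2)) (hp 3))
          (hp 4), hpat_mul t (mul_mem (mul_mem (hp 0) (hp 1)) (hp 2)) (hp 3),
        hpat_mul t (mul_mem (hp 0) (hp 1)) (hp 2), hpat_mul t (hp 0) (hp 1)]
      simp only [hpow]
    let g : (Fin 5 → ZMod 2) × ↥(Zs 3) → K := fun cz =>
      ⟨y cz.1 * cz.2, mul_mem (hyK _) (hZK cz.2.2)⟩
    have hg : Function.Injective g := by
      rintro ⟨c, a⟩ ⟨d, b⟩ hcd
      have he : y c * a = y d * b := congrArg Subtype.val hcd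
      have hc : c = d := by
        refine pairs_read c d fun q => ?_
        obtain ⟨t, ht⟩ := F.act_surj q
        have h1 := congrArg (fun x => F.f (t⁻¹ * x * t)) he
        rw [hpat_mul t (hKW (hyK c)) (h.zs_le (by omega) a.2),
          hpat_mul t (hKW (hyK d)) (h.zs_le (by omega) b.2)] at h1
        have h0 : ∀ z : ↥(Zs 3), F.f (t⁻¹ * z * t) = 0 := fun z =>
          F.f_three _ (by simpa using (inferInstance : (Zs 3).Normal).conj_mem _ z.2 t⁻¹)
        rw [h0, h0, add_zero, add_zero, hypat, hypat, ht] at h1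
        exact h1
      subst hc
      rw [mul_right_inj] at he
      rw [Subtype.ext he]
    have := Nat.card_le_card_of_injective g hg
    rw [Nat.card_prod, Nat.card_fun, Nat.card_zmod, h.card_zs (by omega), Nat.card_eq_fintype_card,
      Fintype.card_fin] at this
    rw [h.card_W]
    norm_num at this ⊢
    omega

end CfsgLib.RudvalisTwo
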