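import Cfsg.Agent.RudvalisTwo.Basic

/-!
Coordinates on `Z₃`, the action of `T / W` on them and the induced dihedral quotient.
-/

namespace CfsgLib.RudvalisTwo

open scoped commutatorElement

/-- Parameters `(i, k, j)` of an element of `T / W`; also coordinates on `Z₃`. -/
abbrev P3 := ZMod 2 × ZMod 2 × ZMod 2

/-- Composition of parameters. -/
def comp (p q : P3) : P3 :=
  (p.1 + q.1, p.2.1 + q.2.1, p.2.2 + q.2.2 + q.2.1 * p.1)

/-- The action on coordinates of `Z₃`. -/
def conjP (p x : P3) : P3 :=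
  (x.1 + x.2.1 * p.1 + x.2.2 * p.2.2, x.2.1 + x.2.2 * p.2.1, x.2.2)

theorem comp_left_cancel : ∀ a q q' : P3, comp a q = comp a q' → q = q' := by decide

theorem exists_comp_eq : ∀ a b : P3, ∃ q, comp a q = b := by decide

theorem conjP_comp : ∀ p q x : P3, conjP p (conjP q x) = conjP (comp p q) x := by decide

theorem conjP_zero : ∀ p : P3, conjP 0 p = p := by decide

theorem conjP_eq_self_imp : ∀ p : P3, (∀ x, conjP p x = x) → p = 0 := by decide

theorem conjP_ext : ∀ p q : P3, (∀ x, conjP p x = conjP q x) → p = q := by decide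

variable {T : Type*} [Group T] [Finite T] {W : Subgroup T}

local notation "Zs" => Subgroup.upperCentralSeries T

/-- Coordinates and the functional used to detect `W / Z₃`. -/
structure Frame (W : Subgroup T) where
  e : P3 → T
  e_add : ∀ p q, e (p + q) = e p * e q
  e_inj : Function.Injective e
  mem_three : ∀ {x : T}, x ∈ Zs 3 ↔ ∃ p, e p = x
  mem_two : ∀ {p : P3}, e p ∈ Zs 2 ↔ p.2.2 = 0
  act : T → P3
  act_mul : ∀ s t, act (s * t) = comp (act s) (act t)
  act_eq_zero : ∀ {t : T}, act t = 0 ↔ t ∈ W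
  act_surj : Function.Surjective act
  conj_e : ∀ t x, t * e x * t⁻¹ = e (conjP (act t) x)
  f : T → ZMod 2
  f_mul : ∀ a ∈ W, ∀ b ∈ W, f (a * b) = f a + f b
  f_three : ∀ x ∈ Zs 3, f x = 0
  f_ker : ∀ x ∈ W, (∀ t, f (t⁻¹ * x * t) = 0) → x ∈ Zs 3
  f_surj : ∀ F : P3 → ZMod 2, ∃ x ∈ W, ∀ t : T, f (t⁻¹ * x * t) = F (act t)

namespace Frame

variable (F : Frame W)

theorem act_one : F.act 1 = 0 := F.act_eq_zero.2 (one_mem _)

theorem act_mul_of_mem (t : T) {v : T} (hv : v ∈ W) : F.act (t * v) = F.act t := by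
  rw [F.act_mul, F.act_eq_zero.2 hv]
  generalize F.act t = p
  revert p
  decide

theorem inv_mul_mem_of_act_eq {s t : T} (hst : F.act s = F.act t) : s⁻¹ * t ∈ W := by
  rw [← F.act_eq_zero]
  apply comp_left_cancel (F.act s)
  rw [← F.act_mul, mul_inv_cancel_left, ← hst]
  generalize F.act s = p
  revert p
  decide

theorem e_mem (p : P3) : F.e p ∈ Zs 3 := F.mem_three.2 ⟨p, rfl⟩

theorem e_zero : F.e 0 = 1 := by
  have := F.e_add 0 0
  rwa [add_zero, eq_comm, mul_eq_left] at this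

end Frame

theorem pow_zmod_two_add {z : T} (hz : z ^ 2 = 1) (a b : ZMod 2) :
    z ^ (a + b).val = z ^ a.val * z ^ b.val := by
  rw [ZMod.val_add, ← pow_eq_pow_mod _ hz, pow_add]

theorem Hyp.exists_frame (h : Hyp W) : Nonempty (Frame W) := by
  classical
  haveI := h.normal
  obtain ⟨hidx, hW11, -, f, hf, hf3, hfker, hfsurj⟩ := h.core
  obtain ⟨z₁, h1, h1'⟩ := h.exists_rep (i := 0) (by omega)
  obtain ⟨z₂, h2, h2'⟩ := h.exists_rep (i := 1) (by omega)
  obtain ⟨z₃, h3, h3'⟩ := h.exists_rep (i := 2) (by omega)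
  have m12 := Subgroup.upperCentralSeries_mono T (show (1 : ℕ) ≤ 2 by norm_num)
  have m13 := Subgroup.upperCentralSeries_mono T (show (1 : ℕ) ≤ 3 by norm_num)
  have m23 := Subgroup.upperCentralSeries_mono T (show (2 : ℕ) ≤ 3 by norm_num)
  have hcomm : ∀ {x y : T}, x ∈ Zs 3 → y ∈ Zs 3 → Commute x y :=
    fun hx hy => h.commute (h.zs_le (by omega) hx) hy
  let e : P3 → T := fun p => z₁ ^ p.1.val * z₂ ^ p.2.1.val * z₃ ^ p.2.2.val
  have heZ : ∀ p, e p ∈ Zs 3 := fun p =>
    mul_mem (mul_mem (pow_mem (m13 h1) _) (pow_mem (m23 h2) _)) (pow_mem h3 _)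
  have he_add : ∀ p q, e (p + q) = e p * e q := by
    intro p q
    simp only [e, Prod.fst_add, Prod.snd_add,
      pow_zmod_two_add (h.sq_eq_one (m13 h1)), pow_zmod_two_add (h.sq_eq_one (m23 h2)),
      pow_zmod_two_add (h.sq_eq_one h3)]
    have c1 : Commute (z₂ ^ p.2.1.val) (z₁ ^ q.1.val) := (hcomm (m23 h2) (m13 h1)).pow_pow _ _
    have c2 : Commute (z₃ ^ p.2.2.val) (z₁ ^ q.1.val * z₂ ^ q.2.1.val) :=
      ((hcomm h3 (m13 h1)).pow_pow _ _).mul_right ((hcomm h3 (m23 h2)).pow_pow _ _)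
    calc z₁ ^ p.1.val * z₁ ^ q.1.val * (z₂ ^ p.2.1.val * z₂ ^ q.2.1.val) *
          (z₃ ^ p.2.2.val * z₃ ^ q.2.2.val)
        = z₁ ^ p.1.val * (z₁ ^ q.1.val * z₂ ^ p.2.1.val) * z₂ ^ q.2.1.val *
          z₃ ^ p.2.2.val * z₃ ^ q.2.2.val := by simp only [mul_assoc]
      _ = z₁ ^ p.1.val * z₂ ^ p.2.1.val * ((z₁ ^ q.1.val * z₂ ^ q.2.1.val) * z₃ ^ p.2.2.val) *
          z₃ ^ q.2.2.val := by rw [← c1.eq]; simp only [mul_assoc]
      _ = _ := by rw [← c2.eq]; simp only [mul_assoc]
  have hz0 : ∀ z : T, z ^ (0 : ZMod 2).val = 1 := fun z => pow_zero z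
  have hz1 : ∀ z : T, z ^ (1 : ZMod 2).val = z := fun z => pow_one z
  have hd : ∀ a : ZMod 2, a = 0 ∨ a = 1 := by decide
  have hm2 : ∀ {p : P3}, e p ∈ Zs 2 ↔ p.2.2 = 0 := by
    intro p
    have hab : z₁ ^ p.1.val * z₂ ^ p.2.1.val ∈ Zs 2 :=
      mul_mem (pow_mem (m12 h1) _) (pow_mem h2 _)
    constructor
    · intro hp
      rcases hd p.2.2 with hc | hc
      · exact hc
      · exfalso
        simp only [e, hc, hz1] at hp
        exact h3' ((Subgroup.mul_mem_cancel_left _ hab).1 hp)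
    · intro hc
      simp only [e, hc, hz0, mul_one]
      exact hab
  have he0 : ∀ p, e p = 1 → p = 0 := by
    rintro ⟨a, b, c⟩ hp
    have hc : c = 0 := hm2.1 (show e (a, b, c) ∈ Zs 2 from hp ▸ one_mem _)
    subst hc
    simp only [e, hz0, mul_one] at hp
    have hb : b = 0 := by
      rcases hd b with hb | hb
      · exact hb
      · exfalso
        rw [hb, hz1] at hp
        refine h2' ?_
        rw [eq_inv_of_mul_eq_one_right hp]
        exact inv_mem (pow_mem h1 _)
    subst hb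
    simp only [hz0, mul_one] at hp
    rcases hd a with ha | ha
    · subst ha; rfl
    · exfalso
      rw [ha, hz1] at hp
      exact h1' (hp ▸ one_mem _)
  have he_inj : Function.Injective e := by
    intro p q hpq
    have := he_add (p - q) q
    rw [sub_add_cancel, hpq, right_eq_mul] at this
    exact sub_eq_zero.1 (he0 _ this)
  have hm3 : ∀ {x : T}, x ∈ Zs 3 ↔ ∃ p, e p = x := by
    intro x
    refine ⟨fun hx => ?_, fun ⟨p, hp⟩ => hp ▸ heZ p⟩
    obtain ⟨c, hc⟩ : ∃ c : ZMod 2, x * (z₃ ^ c.val)⁻¹ ∈ Zs 2 := by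
      rcases h.mem_cases (i := 2) (by omega) hx h3 h3' with hc | hc
      · exact ⟨0, by simpa [hz0] using hc⟩
      · exact ⟨1, by simpa [hz1] using hc⟩
    obtain ⟨b, hb⟩ : ∃ b : ZMod 2, x * (z₃ ^ c.val)⁻¹ * (z₂ ^ b.val)⁻¹ ∈ Zs 1 := by
      rcases h.mem_cases (i := 1) (by omega) hc h2 h2' with hb | hb
      · exact ⟨0, by simpa [hz0] using hb⟩
      · exact ⟨1, by simpa [hz1] using hb⟩
    obtain ⟨a, ha⟩ : ∃ a : ZMod 2,
        x * (z₃ ^ c.val)⁻¹ * (z₂ ^ b.val)⁻¹ * (z₁ ^ a.val)⁻¹ ∈ Zs 0 := by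
      rcases h.mem_cases (i := 0) (by omega) hb h1 h1' with ha | ha
      · exact ⟨0, by simpa [hz0] using ha⟩
      · exact ⟨1, by simpa [hz1] using ha⟩
    rw [Subgroup.upperCentralSeries_zero, Subgroup.mem_bot, mul_inv_eq_one, mul_inv_eq_iff_eq_mul,
      mul_inv_eq_iff_eq_mul] at ha
    exact ⟨(a, b, c), ha.symm⟩
  have hcen : ∀ (a : ZMod 2) (t : T), t * e (a, 0, 0) * t⁻¹ = e (a, 0, 0) := by
    intro a t
    have : z₁ ^ a.val ∈ Subgroup.center T := by
      rw [← Subgroup.upperCentralSeries_one]; exact pow_mem h1 _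
    simp only [e, hz0, mul_one]
    rw [Subgroup.mem_center_iff.1 this t, mul_inv_cancel_right]
  have hact : ∀ t : T, ∃ p : P3, ∀ x, t * e x * t⁻¹ = e (conjP p x) := by
    intro t
    obtain ⟨p2, hp2⟩ := hm3.1 (Subgroup.Normal.conj_mem inferInstance z₂ (m23 h2) t)
    obtain ⟨p3, hp3⟩ := hm3.1 (Subgroup.Normal.conj_mem inferInstance z₃ h3 t)
    have e010 : e (0, 1, 0) = z₂ := by simp [e, hz0, hz1]
    have e001 : e (0, 0, 1) = z₃ := by simp [e, hz0, hz1]
    have h22 : t * z₂ * t⁻¹ * z₂⁻¹ ∈ Zs 1 := by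
      have := Subgroup.mem_upperCentralSeries_succ_iff.1 h2 t
      rw [← inv_mem_iff, commutatorElement_inv] at this
      exact this
    have h33 : t * z₃ * t⁻¹ * z₃⁻¹ ∈ Zs 2 := by
      have := Subgroup.mem_upperCentralSeries_succ_iff.1 h3 t
      rw [← inv_mem_iff, commutatorElement_inv] at this
      exact this
    have hp3' : p3.2.2 = 1 := by
      rcases hd p3.2.2 with hc | hc
      · exfalso
        have h4 := hm2.2 hc
        rw [hp3] at h4
        exact h3' (inv_mem_iff.1 ((Subgroup.mul_mem_cancel_left _ h4).1 h33))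
      · exact hc
    have hp2' : p2.2.2 = 0 ∧ p2.2.1 = 1 := by
      refine ⟨hm2.1 (hp2 ▸ Subgroup.Normal.conj_mem inferInstance z₂ h2 t), ?_⟩
      rcases hd p2.2.1 with hb | hb
      · exfalso
        have h4 : e p2 ∈ Zs 1 := by
          have h5 : p2.2.2 = 0 := hm2.1 (hp2 ▸ Subgroup.Normal.conj_mem inferInstance z₂ h2 t)
          simp only [e, hb, h5, hz0, mul_one]
          exact pow_mem h1 _
        rw [hp2] at h4
        exact h2' (inv_mem_iff.1 ((Subgroup.mul_mem_cancel_left _ h4).1 h22))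
      · exact hb
    refine ⟨(p2.1, p3.2.1, p3.1), ?_⟩
    obtain ⟨i, k0, i0⟩ := p2
    obtain ⟨j, k, j0⟩ := p3
    obtain ⟨rfl, rfl⟩ := hp2'
    obtain rfl := hp3'
    rintro ⟨a, b, c⟩
    have hsplit : e (a, b, c) = e (a, 0, 0) * e (0, b, 0) * e (0, 0, c) := by
      rw [← he_add, ← he_add]; simp
    have hb : t * e (0, b, 0) * t⁻¹ = e (b * i, b, 0) := by
      rcases hd b with rfl | rfl
      · have : e 0 = 1 := by simp [e, hz0]
        simp only [zero_mul]
        rw [show ((0 : ZMod 2), (0 : ZMod 2), (0 : ZMod 2)) = (0 : P3) from rfl, this]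
        group
      · rw [e010, ← hp2, one_mul]
    have hc : t * e (0, 0, c) * t⁻¹ = e (c * j, c * k, c) := by
      rcases hd c with rfl | rfl
      · have : e 0 = 1 := by simp [e, hz0]
        simp only [zero_mul]
        rw [show ((0 : ZMod 2), (0 : ZMod 2), (0 : ZMod 2)) = (0 : P3) from rfl, this]
        group
      · rw [e001, ← hp3, one_mul, one_mul]
    rw [hsplit, show t * (e (a, 0, 0) * e (0, b, 0) * e (0, 0, c)) * t⁻¹ =
      t * e (a, 0, 0) * t⁻¹ * (t * e (0, b, 0) * t⁻¹) * (t * e (0, 0, c) * t⁻¹) by group,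
      hcen, hb, hc, ← he_add, ← he_add]
    simp [conjP]
  choose act hconj using hact
  have hact_mul : ∀ s t, act (s * t) = comp (act s) (act t) := by
    intro s t
    refine conjP_ext _ _ fun x => he_inj ?_
    rw [← hconj, ← conjP_comp, ← hconj, ← hconj]
    group
  have hact0 : ∀ {t : T}, act t = 0 ↔ t ∈ W := by
    intro t
    constructor
    · intro ht
      have : ∀ x ∈ Zs 3, Commute t x := by
        intro x hx
        obtain ⟨p, rfl⟩ := hm3.1 hx
        have hp := hconj t p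
        rw [ht, conjP_zero, mul_inv_eq_iff_eq_mul] at hp
        exact hp
      rw [h.eq_centralizer, Subgroup.mem_centralizer_iff]
      exact fun x hx => (this x hx).eq.symm
    · intro ht
      refine conjP_eq_self_imp _ fun x => he_inj ?_
      rw [← hconj, (h.commute ht (heZ x)).eq, mul_inv_cancel_right]
  let g : T ⧸ W → P3 := fun c => act c.out
  have hg : Function.Injective g := by
    intro a b hab
    rw [← QuotientGroup.out_eq' a, ← QuotientGroup.out_eq' b, QuotientGroup.eq, ← hact0]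
    apply comp_left_cancel (act a.out)
    rw [← hact_mul, mul_inv_cancel_left]
    have hab' : act a.out = act b.out := hab
    rw [← hab']
    generalize act a.out = p
    revert p
    decide
  have hgs : Function.Surjective g := by
    refine (Function.Injective.bijective_of_nat_card_le hg ?_).2
    rw [Nat.card_prod, Nat.card_prod, Nat.card_zmod, ← Subgroup.index_eq_card, hidx]
  refine ⟨⟨e, he_add, he_inj, hm3, hm2, act, hact_mul, hact0,
    fun p => (hgs p).elim fun c hc => ⟨c.out, hc⟩, hconj, f, hf, hf3, ?_, ?_⟩⟩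
  · intro x hx ht
    refine hfker x hx fun t => ?_
    simpa using ht t⁻¹
  · intro G
    obtain ⟨x, hxW, hx⟩ := hfsurj fun c => G (act (c.out)⁻¹)
    refine ⟨x, hxW, fun t => ?_⟩
    have h' := hx t⁻¹
    rw [inv_inv] at h'
    rw [h']
    congr 1
    obtain ⟨v, hv⟩ := QuotientGroup.mk_out_eq_mul W t⁻¹
    rw [hv, mul_inv_rev, inv_inv, hact_mul, hact0.2 (inv_mem v.2)]
    generalize act t = p
    revert p
    decide

/-- The bijection of parameters with the dihedral group of order eight. -/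
def psi (p : P3) : DihedralGroup 4 :=
  if p = (0, 0, 0) then .r 0 else if p = (1, 1, 0) then .r 1 else if p = (0, 0, 1) then .r 2
  else if p = (1, 1, 1) then .r 3 else if p = (1, 0, 0) then .sr 0 else if p = (0, 1, 1) then .sr 1
  else if p = (1, 0, 1) then .sr 2 else .sr 3

theorem psi_comp : ∀ p q : P3, psi (comp p q) = psi p * psi q := by decide

theorem psi_surjective : Function.Surjective psi := by decide

theorem psi_eq_one : ∀ p : P3, psi p = 1 ↔ p = 0 := by decide

theorem Frame.nonempty_mulEquiv (F : Frame W) [W.Normal] :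
    Nonempty (T ⧸ W ≃* DihedralGroup 4) := by
  let φ : T →* DihedralGroup 4 :=
    MonoidHom.mk' (fun t => psi (F.act t)) (fun a b => by rw [F.act_mul, psi_comp])
  have hk : φ.ker = W := by
    ext t
    rw [MonoidHom.mem_ker]
    exact (psi_eq_one _).trans F.act_eq_zero
  exact ⟨(QuotientGroup.quotientMulEquivOfEq hk.symm).trans
    (QuotientGroup.quotientKerEquivOfSurjective φ (psi_surjective.comp F.act_surj))⟩

end CfsgLib.RudvalisTwo
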