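import Cfsg.Agent.RudvalisTwo.Coord

/-!
`T` has no automorphism of odd order, and `W` is the only subgroup of its shape.
-/

namespace CfsgLib.RudvalisTwo

open scoped commutatorElement

variable {T : Type*} [Group T] [Finite T] {W : Subgroup T}

local notation "Zs" => Subgroup.upperCentralSeries T

theorem Hyp.fix_of_step (h : Hyp W) {σ : MulAut T} {n : ℕ} (hn : Odd n) (hσ : σ ^ n = 1) {x : T}
    (hfix : σ (x⁻¹ * σ x) = x⁻¹ * σ x) : σ x = x := by
  have hit : ∀ m, (σ ^ m) x = x * (x⁻¹ * σ x) ^ m := by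
    intro m
    induction m with
    | zero => simp
    | succ m ih =>
      rw [pow_succ', MulAut.mul_apply, ih, map_mul, map_pow, hfix, pow_succ', ← mul_assoc,
        mul_inv_cancel_left]
  have h1 := hit n
  rw [hσ, MulAut.one_apply, left_eq_mul] at h1
  have hcop : (orderOf (x⁻¹ * σ x)).Coprime n :=
    h.isPGroup.orderOf_coprime (Nat.coprime_two_left.2 hn) _
  have h3 := Nat.Coprime.eq_one_of_dvd hcop (orderOf_dvd_of_pow_eq_one h1)
  rw [orderOf_eq_one_iff, inv_mul_eq_one] at h3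
  exact h3.symm

theorem Hyp.aut_eq_one (h : Hyp W) {σ : MulAut T} {n : ℕ} (hn : Odd n) (hσ : σ ^ n = 1) :
    σ = 1 := by
  haveI := h.normal
  obtain ⟨F⟩ := h.exists_frame
  have hchar : ∀ i, ∀ {x : T}, x ∈ Zs i → σ x ∈ Zs i := fun i x hx => by
    have := (inferInstance : (Zs i).Characteristic).fixed σ
    rw [← this] at hx
    exact hx
  have hchar' : ∀ i, ∀ {x : T}, σ x ∈ Zs i → x ∈ Zs i := fun i x hx => by
    have := (inferInstance : (Zs i).Characteristic).fixed σ
    rw [← this]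
    exact hx
  have hfix4 : ∀ i ≤ 4, ∀ x ∈ Zs i, σ x = x := by
    intro i
    induction i with
    | zero =>
      intro _ x hx
      rw [Subgroup.upperCentralSeries_zero, Subgroup.mem_bot] at hx
      simp [hx]
    | succ i ih =>
      intro hi x hx
      by_cases hx' : x ∈ Zs i
      · exact ih (by omega) x hx'
      refine h.fix_of_step hn hσ (ih (by omega) _ ?_)
      exact h.mul_mem_of (by omega) (inv_mem hx) (hchar _ hx) (by simpa using hx')
        (fun hh => hx' (hchar' _ hh))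
  have hWσ : ∀ {x : T}, x ∈ W → σ x ∈ W := by
    intro x hx
    rw [h.eq_centralizer, Subgroup.mem_centralizer_iff]
    intro z hz
    rw [← hfix4 3 (by omega) z hz, ← map_mul, ← map_mul, (h.commute hx hz).eq]
  have hact : ∀ t, t⁻¹ * σ t ∈ W := by
    intro t
    refine F.inv_mul_mem_of_act_eq (conjP_ext _ _ fun x => F.e_inj ?_)
    rw [← F.conj_e, ← F.conj_e]
    conv_rhs => rw [← hfix4 3 (by omega) _ (F.e_mem x), ← map_inv, ← map_mul, ← map_mul]
    rw [hfix4 3 (by omega) _ (Subgroup.Normal.conj_mem inferInstance _ (F.e_mem x) t)]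
  have hW : ∀ m, ∀ x ∈ W, x ∈ Zs m → σ x = x := by
    intro m
    induction m with
    | zero => exact fun x _ hx => hfix4 0 (by omega) x hx
    | succ m ih =>
      intro x hxW hxm
      refine h.fix_of_step hn hσ (hfix4 4 le_rfl _ ?_)
      rw [Subgroup.mem_upperCentralSeries_succ_iff]
      intro t
      have hy : ⁅x, t⁆ ∈ W := by
        rw [show ⁅x, t⁆ = x * (t * x⁻¹ * t⁻¹) by simp only [commutatorElement_def]; group]
        exact mul_mem hxW (Subgroup.Normal.conj_mem inferInstance _ (inv_mem hxW) t)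
      have heq : ⁅σ x, σ t⁆ = ⁅x, t⁆ :=
        (map_commutatorElement σ.toMonoidHom x t).symm.trans
          (ih _ hy (Subgroup.mem_upperCentralSeries_succ_iff.1 hxm t))
      let q := QuotientGroup.mk' (Zs 3)
      have hq : ∀ {a b : T}, a ∈ W → b ∈ W → Commute (q a) (q b) := fun ha hb => by
        rw [← commutatorElement_eq_one_iff_commute, ← map_commutatorElement]
        exact (QuotientGroup.eq_one_iff _).2 (h.comm_mem_three ha hb)
      have hσt : q (σ t) = q t * q (t⁻¹ * σ t) := by rw [← map_mul, mul_inv_cancel_left]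
      have he := congrArg q heq
      rw [map_commutatorElement, map_commutatorElement, hσt] at he
      have hV : Commute (q (σ x)) (q (t⁻¹ * σ t)) := hq (hWσ hxW) (hact t)
      generalize hA : q x = A at he
      generalize hB : q (σ x) = B at he hV
      generalize hS : q t = S at he
      generalize q (t⁻¹ * σ t) = V at he hV
      have he' : B * S * B⁻¹ = A * S * A⁻¹ := by
        simp only [commutatorElement_def, mul_inv_rev] at he
        rw [show B * (S * V) * B⁻¹ * (V⁻¹ * S⁻¹) = B * S * (V * B⁻¹) * V⁻¹ * S⁻¹ by group,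
          (hV.inv_left.eq).symm, show B * S * (B⁻¹ * V) * V⁻¹ * S⁻¹ = B * S * B⁻¹ * S⁻¹ by group]
          at he
        exact mul_right_cancel he
      rw [← QuotientGroup.eq_one_iff]
      change q ⁅x⁻¹ * σ x, t⁆ = 1
      rw [map_commutatorElement, map_mul, map_inv, hA, hB, hS,
        commutatorElement_eq_one_iff_mul_comm]
      calc A⁻¹ * B * S = A⁻¹ * (B * S * B⁻¹) * B := by group
        _ = S * (A⁻¹ * B) := by rw [he']; group
  haveI := h.isPGroup.isNilpotent
  obtain ⟨N, hN⟩ := Group.IsNilpotent.nilpotent T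
  ext t
  exact h.fix_of_step hn hσ (hW N _ (hact t) (hN ▸ Subgroup.mem_top _))

theorem conjP_fixed_top : ∀ p x : P3, x.2.2 = 1 → conjP p x = x → p = 0 ∨ p = (1, 0, x.2.1) := by
  decide

theorem fst_one_cases : ∀ p q : P3, p.1 = 1 → q.1 = 1 → (comp p q).1 = 0 := by decide

/-- A subgroup of `T` isomorphic to `W` is equal to `W`. -/
theorem Hyp.range_eq (h : Hyp W) (φ : ↥W →* T) (hφ : Function.Injective φ) : φ.range = W := by
  classical
  by_contra hne
  haveI := h.normal
  obtain ⟨F⟩ := h.exists_frame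
  obtain ⟨z, hz3, hz2⟩ := h.exists_rep (i := 2) (by omega)
  let E : Subgroup T := ((Zs 3).subgroupOf W).map φ
  have hE : Nat.card E = 8 := by
    rw [Subgroup.card_map_of_injective hφ,
      Nat.card_congr (Subgroup.subgroupOfEquivOfLe (h.zs_le (by omega))).toEquiv,
      h.card_zs (by omega)]
    norm_num
  have hX : Nat.card φ.range = 2 ^ 11 := by
    rw [← h.card_W]
    exact (Nat.card_congr (MonoidHom.ofInjective hφ).toEquiv).symm
  have hEsq : ∀ a ∈ φ.range, a ^ 2 ∈ E := by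
    rintro _ ⟨w, rfl⟩
    exact ⟨w ^ 2, Subgroup.mem_subgroupOf.2 (by simpa using h.sq_mem_three w.2), map_pow φ w 2⟩
  have hEcomm : ∀ a ∈ φ.range, ∀ b ∈ φ.range, ⁅a, b⁆ ∈ E := by
    rintro _ ⟨a, rfl⟩ _ ⟨b, rfl⟩
    refine ⟨⁅a, b⁆, Subgroup.mem_subgroupOf.2 ?_, map_commutatorElement φ a b⟩
    rw [show ((⁅a, b⁆ : W) : T) = ⁅(a : T), (b : T)⁆ from map_commutatorElement W.subtype a b]
    exact h.comm_mem_three a.2 b.2
  have hEcen : ∀ a ∈ φ.range, ∀ c ∈ E, Commute a c := by
    rintro _ ⟨a, rfl⟩ _ ⟨c, hc, rfl⟩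
    exact Commute.map (Subtype.ext (h.commute a.2 (Subgroup.mem_subgroupOf.1 hc)).eq) φ
  -- the image of `φ.range` in `T ⧸ W`
  let π : φ.range →* T ⧸ W := (QuotientGroup.mk' W).comp φ.range.subtype
  have hπker : ∀ x : φ.range, x ∈ π.ker ↔ (x : T) ∈ W := fun x => by
    rw [MonoidHom.mem_ker]; exact QuotientGroup.eq_one_iff _
  let Y : Subgroup T := φ.range ⊓ W
  have hY : Nat.card Y * Nat.card π.range = 2 ^ 11 := by
    rw [← hX, ← Subgroup.card_mul_index π.ker, Subgroup.index_ker]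
    congr 1
    rw [← Subgroup.card_map_of_injective φ.range.subtype_injective (K := π.ker)]
    have : π.ker.map φ.range.subtype = Y := by
      ext y
      constructor
      · rintro ⟨x, hx, rfl⟩; exact ⟨x.2, (hπker x).1 hx⟩
      · rintro ⟨h1, h2⟩; exact ⟨⟨y, h1⟩, (hπker _).2 h2, rfl⟩
    rw [this]
  by_cases hcase : ∀ c ∈ E, c ∈ Zs 3 → c ∈ Zs 2
  · -- squares of `Y ⊔ Z₃` lie in `Z₂`
    have hle8 : Nat.card π.range ≤ 8 := by
      refine le_trans (Subgroup.card_le_card_group _) ?_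
      rw [← Subgroup.index_eq_card, h.index_eq]
    refine h.absurd_of_squares (Y ⊔ Zs 3) (sup_le inf_le_right (h.zs_le (by omega)))
      (le_trans (Subgroup.upperCentralSeries_mono T (by omega : 2 ≤ 3)) le_sup_right) hz3 hz2
      (Subgroup.mem_sup_right hz3) ?_ ?_
    · intro x hx
      obtain ⟨y, hy, c, hc, rfl⟩ := Subgroup.mem_sup_of_normal_right.1 hx
      rw [(h.commute hy.2 hc).mul_pow, h.sq_eq_one hc, mul_one]
      exact hcase _ (hEsq y hy.1) (h.sq_mem_three hy.2)
    · have h1 : Nat.card Y ≤ Nat.card (Y ⊔ Zs 3 : Subgroup T) :=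
        Subgroup.card_le_of_le le_sup_left
      have h2 := Nat.mul_le_mul_left (Nat.card Y) hle8
      rw [h.card_W]
      omega
  push Not at hcase
  obtain ⟨c, hcE, hc3, hc2⟩ := hcase
  obtain ⟨⟨a, b, d⟩, rfl⟩ := F.mem_three.1 hc3
  have hd : d = 1 := by
    have : ∀ d : ZMod 2, d ≠ 0 → d = 1 := by decide
    exact this d fun h0 => hc2 (F.mem_two.2 h0)
  subst hd
  have hact : ∀ x ∈ φ.range, x ∉ W → F.act x = (1, 0, b) := by
    intro x hx hxW
    have := F.conj_e x (a, b, 1)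
    rw [(hEcen x hx _ hcE).eq, mul_inv_cancel_right] at this
    rcases conjP_fixed_top _ _ rfl (F.e_inj this).symm with h0 | h1
    · exact absurd (F.act_eq_zero.1 h0) hxW
    · exact h1
  obtain ⟨x, hx, hxW⟩ : ∃ x ∈ φ.range, x ∉ W := by
    by_contra hcon
    push Not at hcon
    exact hne (Subgroup.eq_of_le_of_card_ge hcon (by rw [hX, h.card_W]))
  have hr2 : Nat.card π.range ≤ 2 := by
    have hsub : (π.range : Set (T ⧸ W)) ⊆ {1, QuotientGroup.mk x} := by
      rintro _ ⟨⟨y, hy⟩, rfl⟩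
      by_cases hyW : y ∈ W
      · exact Or.inl ((QuotientGroup.eq_one_iff _).2 hyW)
      · exact Or.inr (QuotientGroup.eq.2
          (F.inv_mul_mem_of_act_eq ((hact y hy hyW).trans (hact x hx hxW).symm)))
    refine le_trans (Nat.card_mono (Set.toFinite _) hsub) ?_
    rw [Nat.card_coe_set_eq]
    exact le_trans (Set.ncard_insert_le _ _) (by simp)
  have hq : ∀ {u v : T}, u ∈ W → v ∈ W →
      Commute (QuotientGroup.mk' (Zs 3) u) (QuotientGroup.mk' (Zs 3) v) := fun hu hv => by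
    rw [← commutatorElement_eq_one_iff_commute, ← map_commutatorElement]
    exact (QuotientGroup.eq_one_iff _).2 (h.comm_mem_three hu hv)
  have hcW : ∀ {y : T}, y ∈ W → ⁅x, y⁆ ∈ W := fun {y} hy => by
    rw [commutatorElement_def]
    exact mul_mem (Subgroup.Normal.conj_mem inferInstance _ hy x) (inv_mem hy)
  let ψ : ↥Y →* T ⧸ Zs 3 :=
    MonoidHom.mk' (fun y => QuotientGroup.mk' (Zs 3) ⁅x, (y : T)⁆) (fun u v => by
      rw [Subgroup.coe_mul, show ⁅x, (u : T) * v⁆ = ⁅x, (u : T)⁆ * ((u : T) * ⁅x, (v : T)⁆ * (u : T)⁻¹)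
        by simp only [commutatorElement_def]; group, map_mul, map_mul, map_mul, map_inv,
        (hq u.2.2 (hcW v.2.2)).eq, mul_inv_cancel_right])
  have hψr : Nat.card ψ.range ≤ 4 := by
    let η : ↥E →* T ⧸ Zs 3 := (QuotientGroup.mk' (Zs 3)).comp E.subtype
    have hsub : ψ.range ≤ η.range := by
      rintro _ ⟨y, rfl⟩
      exact ⟨⟨⁅x, (y : T)⁆, hEcomm x hx y y.2.1⟩, rfl⟩
    have hne1 : η.ker ≠ ⊥ := fun hb => by
      have : (⟨_, hcE⟩ : E) ∈ η.ker := (QuotientGroup.eq_one_iff _).2 hc3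
      rw [hb, Subgroup.mem_bot] at this
      exact hc2 (by rw [show F.e (a, b, 1) = 1 from congrArg Subtype.val this]; exact one_mem _)
    have h2 : 2 ≤ Nat.card η.ker := (Subgroup.one_lt_card_iff_ne_bot _).2 hne1
    have h3 := Subgroup.card_mul_index η.ker
    rw [Subgroup.index_ker, hE] at h3
    have h4 := Nat.mul_le_mul_right (Nat.card η.range) h2
    have := Subgroup.card_le_of_le hsub
    omega
  -- elements of `Y` fixed by `x` modulo `Z₃`
  have hrep : ∀ p : P3, ∃ t, F.act t = p := F.act_surj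
  choose s hs using hrep
  have hcj' : ∀ (t : T) {y : T}, y ∈ W → t⁻¹ * y * t ∈ W := fun t y hy => by
    simpa using Subgroup.Normal.conj_mem (inferInstance : W.Normal) _ hy t⁻¹
  let ρ : ↥ψ.ker →* Multiplicative (ZMod 2 × ZMod 2 → ZMod 2) :=
    MonoidHom.mk' (fun y => Multiplicative.ofAdd fun q =>
      F.f ((s (0, q.1, q.2))⁻¹ * ((y : ↥Y) : T) * s (0, q.1, q.2))) (fun u v => by
      rw [← ofAdd_add]
      congr 1
      funext q
      rw [Pi.add_apply, ← F.f_mul _ (hcj' _ (u : ↥Y).2.2) _ (hcj' _ (v : ↥Y).2.2)]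
      congr 1
      simp [mul_assoc])
  have hρk : ∀ y : ↥ψ.ker, y ∈ ρ.ker → ((y : ↥Y) : T) ∈ Zs 3 := by
    intro y hy
    have hyW : ((y : ↥Y) : T) ∈ W := (y : ↥Y).2.2
    have hyz : ⁅x, ((y : ↥Y) : T)⁆ ∈ Zs 3 := (QuotientGroup.eq_one_iff _).1 y.2
    have h0 : ∀ t, (F.act t).1 = 0 → F.f (t⁻¹ * ((y : ↥Y) : T) * t) = 0 := by
      intro t ht
      have h1 := congrFun (congrArg Multiplicative.toAdd (MonoidHom.mem_ker.1 hy))
        ((F.act t).2.1, (F.act t).2.2)
      simp only [ρ, MonoidHom.mk'_apply, toAdd_ofAdd, toAdd_one, Pi.zero_apply] at h1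
      have hact_t : F.act (s (0, (F.act t).2.1, (F.act t).2.2)) = F.act t := by
        rw [hs, ← ht]
      generalize s (0, (F.act t).2.1, (F.act t).2.2) = r at h1 hact_t
      have hv : r⁻¹ * t ∈ W := F.inv_mul_mem_of_act_eq hact_t
      rw [show t = r * (r⁻¹ * t) by group]
      generalize r⁻¹ * t = v at hv ⊢
      rw [show (r * v)⁻¹ * ((y : ↥Y) : T) * (r * v) = v⁻¹ * (r⁻¹ * ((y : ↥Y) : T) * r) * v by group,
        F.f_mul _ (mul_mem (inv_mem hv) (hcj' r hyW)) _ hv,
        F.f_mul _ (inv_mem hv) _ (hcj' r hyW), h1, add_zero, ← F.f_mul _ (inv_mem hv) _ hv,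
        inv_mul_cancel]
      exact F.f_three 1 (one_mem _)
    refine F.f_ker _ hyW fun t => ?_
    have hd : ∀ i : ZMod 2, i ≠ 0 → i = 1 := by decide
    by_cases ht : (F.act t).1 = 0
    · exact h0 t ht
    have hxt : (F.act (x * t)).1 = 0 := by
      rw [F.act_mul, hact x hx hxW]
      exact fst_one_cases _ _ rfl (hd _ ht)
    have h2 := h0 (x * t) hxt
    have hz' : (x * t)⁻¹ * ⁅x, ((y : ↥Y) : T)⁆⁻¹ * (x * t) ∈ Zs 3 := by
      simpa using Subgroup.Normal.conj_mem (inferInstance : (Zs 3).Normal) _ (inv_mem hyz) (x * t)⁻¹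
    rw [show t⁻¹ * ((y : ↥Y) : T) * t =
        (x * t)⁻¹ * ⁅x, ((y : ↥Y) : T)⁆ * ((y : ↥Y) : T) * (x * t) by
      simp only [commutatorElement_def]; group]
    have hz'' : (x * t)⁻¹ * ⁅x, ((y : ↥Y) : T)⁆ * (x * t) ∈ Zs 3 := by
      simpa using Subgroup.Normal.conj_mem (inferInstance : (Zs 3).Normal) _ hyz (x * t)⁻¹
    rw [show (x * t)⁻¹ * ⁅x, ((y : ↥Y) : T)⁆ * ((y : ↥Y) : T) * (x * t) =
        (x * t)⁻¹ * ⁅x, ((y : ↥Y) : T)⁆ * (x * t) * ((x * t)⁻¹ * ((y : ↥Y) : T) * (x * t)) by group,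
      F.f_mul _ (h.zs_le (by omega) hz'') _ (hcj' _ hyW), F.f_three _ hz'', h2, add_zero]
  have hk8 : Nat.card ρ.ker ≤ 8 := by
    let g : ρ.ker → ↥(Zs 3) := fun y => ⟨_, hρk y.1 y.2⟩
    have hg : Function.Injective g := fun u v huv => by
      have := congrArg Subtype.val huv
      exact Subtype.ext (Subtype.ext (Subtype.ext this))
    have := Nat.card_le_card_of_injective g hg
    rw [h.card_zs (by omega)] at this
    exact this
  have hr16 : Nat.card ρ.range ≤ 16 := by
    refine le_trans (Subgroup.card_le_card_group _) ?_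
    rw [Nat.card_congr Multiplicative.toAdd, Nat.card_fun, Nat.card_prod, Nat.card_zmod]
    norm_num
  have e1 := Subgroup.card_mul_index ρ.ker
  rw [Subgroup.index_ker] at e1
  have e2 := Subgroup.card_mul_index ψ.ker
  rw [Subgroup.index_ker] at e2
  have e3 := Nat.mul_le_mul hk8 hr16
  rw [e1] at e3
  have e4 := Nat.mul_le_mul e3 hψr
  rw [e2] at e4
  have e5 := Nat.mul_le_mul e4 hr2
  omega

end CfsgLib.RudvalisTwo
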